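import Cfsg.Agent.H368.RG.Engine
import Cfsg.Agent.H368.RC.CB
import Cfsg.Agent.H327.RG.FldAbs

/-!
# S3509: transport of covers by inner-diagonal elements to the fixed points of a Steinberg automorphism (helper694)

`e : N ≃* K₀`, `ι : K₀ →* Y`, `Fr ι σ`, `Env G Ω N`.

* `Rep hE e ι g y` : `g` and `y` induce the same automorphism of `K₀`; `DG hE e ι` : the inner-diagonal elements of `G`;
  `Rep.mul`, `.inv`, `.pow`, `.unique`, `.inj`, `.fix` (`σ y = y`), `.comm`, `.mem_N` (`g ∈ N ↔ y ∈ ι.range`);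
* `lf e ι M` : the subgroup of `N` corresponding to `M ≤ Y`; `lfEquiv : lf e ι M ≃* M` for `M ≤ ι.range`;
* `VG`, `UG` : long root elements and their groups, `lrData`;
* `useful` : transport of `Useful`;
* `core` : transport of `pCore p (K₀ ⊓ C(s)) = ⊥`;
* `card_le` : `|C_D(g)| ≤ |Y^σ ⊓ C(y)|`;
* `engineY` : the engine of helper368 with all data in `Y`, together with the character bound.
-/

set_option autoImplicit false
set_option linter.unusedSectionVars false
open Cfsg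

namespace Cfsg.Agent.H694.RG

open MulAction Subgroup Cfsg.Agent.H106.RC Cfsg.Agent.H327.RG Cfsg.Agent.H368.RG Cfsg.Agent.H873.RG Cfsg.Agent.H380.RC
open Cfsg.Agent.H28.GenF (InD)
open scoped commutatorElement

section rep

variable {G Ω : Type*} [Group G] [MulAction G Ω] {N : Subgroup G} {Y K₀ : Type*} [Group Y] [Group K₀]
  (hE : Env G Ω N) (e : N ≃* K₀) (ι : K₀ →* Y)

/-- `y` induces the same automorphism of `K₀` as `g` -/
def Rep (g : G) (y : Y) : Prop := ∀ a, ι (act hE e g a) = y * ι a * y⁻¹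

/-- the inner-diagonal elements of `G` -/
noncomputable def DG : Subgroup G := (InD ι).comap (act hE e)

variable {hE e ι}

theorem mem_DG {g : G} : g ∈ DG hE e ι ↔ ∃ y, Rep hE e ι g y := Iff.rfl

theorem Rep.one : Rep hE e ι 1 1 := fun a => by rw [map_one]; simp

theorem Rep.mul {g g' : G} {y y' : Y} (h : Rep hE e ι g y) (h' : Rep hE e ι g' y') : Rep hE e ι (g * g') (y * y') := by
  intro a
  rw [map_mul, MulAut.mul_apply, h, h']
  group

theorem Rep.inv {g : G} {y : Y} (h : Rep hE e ι g y) : Rep hE e ι g⁻¹ y⁻¹ := by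
  intro a
  have h1 := h (act hE e g⁻¹ a)
  rw [map_inv, MulAut.apply_inv_self] at h1
  rw [h1, map_inv]
  group

theorem Rep.pow {g : G} {y : Y} (h : Rep hE e ι g y) (n : ℕ) : Rep hE e ι (g ^ n) (y ^ n) := by
  induction n with
  | zero => rw [pow_zero, pow_zero]; exact Rep.one
  | succ n ih => rw [pow_succ, pow_succ]; exact ih.mul h

variable {σ : MulAut Y} (hF : Fr ι σ)

include hF

theorem Rep.unique {g : G} {y y' : Y} (h : Rep hE e ι g y) (h' : Rep hE e ι g y') : y = y' := by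
  have h1 : y'⁻¹ * y = 1 := by
    apply hF.cent
    intro a
    have h2 := (h a).symm.trans (h' a)
    calc y'⁻¹ * y * ι a = y'⁻¹ * (y * ι a * y⁻¹) * y := by group
      _ = y'⁻¹ * (y' * ι a * y'⁻¹) * y := by rw [h2]
      _ = ι a * (y'⁻¹ * y) := by group
  exact (inv_mul_eq_one.1 h1).symm

theorem Rep.inj {g g' : G} {y : Y} (h : Rep hE e ι g y) (h' : Rep hE e ι g' y) : g = g' := by
  apply act_injective hE e
  refine MulEquiv.ext fun a => hF.inj ?_
  rw [h, h']

theorem Rep.fix {g : G} {y : Y} (h : Rep hE e ι g y) : σ y = y := by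
  have h1 : Rep hE e ι g (σ y) := by
    intro a
    have h2 := congrArg σ (h a)
    rw [map_mul, map_mul, map_inv, hF.fixι, hF.fixι] at h2
    exact h2
  exact Rep.unique hF h1 h

theorem Rep.comm {g g' : G} {y y' : Y} (h : Rep hE e ι g y) (h' : Rep hE e ι g' y') :
    g * g' = g' * g ↔ y * y' = y' * y := by
  constructor
  · intro hc
    have h1 := h.mul h'
    rw [hc] at h1
    exact Rep.unique hF h1 (h'.mul h)
  · intro hc
    have h1 := h.mul h'
    rw [hc] at h1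
    exact Rep.inj hF h1 (h'.mul h)

omit hF in
theorem rep_symm (a : K₀) : Rep hE e ι (e.symm a : G) (ι a) := by
  intro b
  have h1 : act hE e (e.symm a : G) b = a * b * a⁻¹ := by
    apply e.symm.injective
    apply Subtype.ext
    rw [coe_act, map_mul, map_mul, map_inv]
    rfl
  rw [h1, map_mul, map_mul, map_inv]

omit hF in
theorem rep_coe {g : G} (hg : g ∈ N) : Rep hE e ι g (ι (e ⟨g, hg⟩)) := by
  have h1 := rep_symm (hE := hE) (e := e) (ι := ι) (e ⟨g, hg⟩)
  rwa [e.symm_apply_apply] at h1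

theorem Rep.mem_N {g : G} {y : Y} (h : Rep hE e ι g y) : g ∈ N ↔ y ∈ ι.range := by
  constructor
  · intro hg
    exact ⟨_, Rep.unique hF (rep_coe hg) h⟩
  · rintro ⟨a, rfl⟩
    rw [Rep.inj hF h (rep_symm a)]
    exact (e.symm a).2

theorem Rep.eq_one {g : G} {y : Y} (h : Rep hE e ι g y) : g = 1 ↔ y = 1 := by
  constructor
  · rintro rfl
    exact Rep.unique hF h Rep.one
  · rintro rfl
    exact Rep.inj hF h Rep.one

theorem le_DG : N ≤ DG hE e ι := fun _ hg => ⟨_, rep_coe hg⟩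

theorem Rep.pow_eq_one {g : G} {y : Y} (h : Rep hE e ι g y) (n : ℕ) : g ^ n = 1 ↔ y ^ n = 1 := Rep.eq_one hF (h.pow n)

/-! ### subgroups -/

omit hF

/-- the subgroup of `N` corresponding to `M ≤ Y` -/
def lf (e : N ≃* K₀) (ι : K₀ →* Y) (M : Subgroup Y) : Subgroup G := lift e (M.comap ι)

theorem mem_lf {M : Subgroup Y} {g : G} : g ∈ lf e ι M ↔ ∃ a, ι a ∈ M ∧ (e.symm a : G) = g := mem_lift

theorem lf_le (M : Subgroup Y) : lf e ι M ≤ N := lift_le e _

include hF in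
theorem Rep.mem_lf {M : Subgroup Y} (hM : M ≤ ι.range) {g : G} {y : Y} (h : Rep hE e ι g y) : g ∈ lf e ι M ↔ y ∈ M := by
  rw [Cfsg.Agent.H694.RG.mem_lf]
  constructor
  · rintro ⟨a, ha, rfl⟩
    rwa [Rep.unique hF h (rep_symm a)]
  · intro hy
    obtain ⟨a, rfl⟩ := hM hy
    exact ⟨a, hy, (Rep.inj hF h (rep_symm a)).symm⟩

/-- `M ∩ ι K₀` and its preimage -/
noncomputable def comapEquiv (hι : Function.Injective ι) {M : Subgroup Y} (hM : M ≤ ι.range) : M.comap ι ≃* M :=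
  MulEquiv.ofBijective (ι.subgroupComap M) ⟨fun a b h => Subtype.ext (hι (congrArg Subtype.val h)), fun b => by
    obtain ⟨a, ha⟩ := hM b.2
    exact ⟨⟨a, by rw [mem_comap, ha]; exact b.2⟩, Subtype.ext ha⟩⟩

/-- `lf e ι M ≃* M` -/
noncomputable def lfEquiv (e : N ≃* K₀) (hι : Function.Injective ι) {M : Subgroup Y} (hM : M ≤ ι.range) : lf e ι M ≃* M :=
  (liftEquiv e _).trans (comapEquiv hι hM)

theorem perfect_iff {K : Type*} [Group K] {M : Subgroup K} : ⁅M, M⁆ = M ↔ commutator M = ⊤ := by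
  have h2 : (commutator M).map M.subtype = ⁅M, M⁆ := by
    rw [commutator_def, Subgroup.map_commutator, ← MonoidHom.range_eq_map, Subgroup.range_subtype]
  constructor
  · intro h
    rw [h] at h2
    apply Subgroup.map_injective M.subtype_injective
    rw [h2, ← MonoidHom.range_eq_map, Subgroup.range_subtype]
  · intro h
    rw [← h2, h, ← MonoidHom.range_eq_map, Subgroup.range_subtype]

theorem perfect_equiv {K K' : Type*} [Group K] [Group K'] {M : Subgroup K} {M' : Subgroup K'} (f : M ≃* M')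
    (h : ⁅M', M'⁆ = M') : ⁅M, M⁆ = M := by
  rw [perfect_iff] at h ⊢
  exact H368.RC.perfect_surj h f.symm.toMonoidHom f.symm.surjective

include hF in
/-- the centralizers -/
theorem inf_cent {g : G} {y : Y} (h : Rep hE e ι g y) :
    N ⊓ centralizer {g} = lf e ι (ι.range ⊓ centralizer {y}) := by
  ext c
  constructor
  · rintro ⟨hc, hc'⟩
    rw [Rep.mem_lf hF inf_le_left (rep_coe (hE := hE) hc)]
    refine ⟨⟨_, rfl⟩, ?_⟩
    have h1 := (Rep.comm hF (rep_coe (hE := hE) hc) h).1 (mem_centralizer_singleton_iff.1 hc')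
    exact mem_centralizer_singleton_iff.2 h1
  · intro hc
    have hcN : c ∈ N := lf_le _ hc
    refine ⟨hcN, ?_⟩
    rw [Rep.mem_lf hF inf_le_left (rep_coe (hE := hE) hcN)] at hc
    have h1 := mem_centralizer_singleton_iff.1 hc.2
    exact mem_centralizer_singleton_iff.2 ((Rep.comm hF (rep_coe (hE := hE) hcN) h).2 h1)

include hF in
/-- **Transport of `O_p(C(s)) = 1`.** -/
theorem core {p : ℕ} {g : G} {y : Y} (h : Rep hE e ι g y) (hy : pCore p ↥(ι.range ⊓ centralizer {y}) = ⊥) :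
    pCore p ↥(N ⊓ centralizer {g}) = ⊥ := by
  rw [inf_cent hF h]
  have h1 := Cfsg.Agent.Lib.Cores.map_equiv_pCore (lfEquiv e hF.inj (M := ι.range ⊓ centralizer {y}) inf_le_left).symm p
  rw [← h1, hy, Subgroup.map_bot]

include hF in
/-- **Centralizers in the group of inner-diagonal elements.** -/
theorem card_le [Finite ↥(fixedSubgroup σ)] {g : G} {y : Y} (h : Rep hE e ι g y) :
    Nat.card {c : DG hE e ι // (c : G) * g = g * c} ≤ Nat.card ↥(fixedSubgroup σ ⊓ centralizer {y}) := by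
  classical
  have hfin : Finite ↥(fixedSubgroup σ ⊓ centralizer {y}) :=
    Finite.of_injective (Subgroup.inclusion inf_le_left) (Subgroup.inclusion_injective inf_le_left)
  have h1 : ∀ c : {c : DG hE e ι // (c : G) * g = g * c}, ∃ z : Y, Rep hE e ι ((c.1 : DG hE e ι) : G) z := fun c => c.1.2
  choose z hz using h1
  refine Nat.card_le_card_of_injective (fun c => (⟨z c, (hz c).fix hF, ?_⟩ : ↥(fixedSubgroup σ ⊓ centralizer {y}))) ?_
  · show z c ∈ centralizer {y}
    rw [mem_centralizer_singleton_iff]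
    exact (Rep.comm hF (hz c) h).1 c.2
  · intro c c' hcc
    have h2 : z c = z c' := congrArg Subtype.val hcc
    apply Subtype.ext
    apply Subtype.ext
    have h3 := hz c
    rw [h2] at h3
    exact Rep.inj hF h3 (hz c')

end rep

/-! ### long root elements, useful elements -/

section lr

variable {G Ω : Type} [Group G] [Finite G] [MulAction G Ω] {N : Subgroup G} {Y K₀ : Type} [Group Y] [Group K₀]

/-- long root elements of `G` -/
def VG (e : N ≃* K₀) (ι : K₀ →* Y) (V : Y → Prop) (g : G) : Prop := ∃ a, (e.symm a : G) = g ∧ V (ι a)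

open scoped Classical in
/-- their groups -/
noncomputable def UG (e : N ≃* K₀) (ι : K₀ →* Y) (U : Y → Subgroup Y) (g : G) : Subgroup G :=
  if h : g ∈ N then lf e ι (U (ι (e ⟨g, h⟩))) else ⊥

theorem UG_symm (e : N ≃* K₀) (ι : K₀ →* Y) (U : Y → Subgroup Y) (a : K₀) : UG e ι U (e.symm a : G) = lf e ι (U (ι a)) := by
  unfold UG
  rw [dif_pos (e.symm a).2, Subtype.coe_eta, e.apply_symm_apply]

/-- **The data in `Y`.** `I = Y^σ`. -/
structure YData (ι : K₀ →* Y) (I : Subgroup Y) (p : ℕ) (V : Y → Prop) (U : Y → Subgroup Y) : Prop where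
  lr : LRData I p V U
  vmem : ∀ v, V v → v ∈ ι.range
  ule : ∀ v, V v → U v ≤ ι.range
  pmem : ∀ y ∈ I, y ^ p = 1 → y ∈ ι.range
  core : ∀ s ∈ I, (∃ m : ℕ, m.Coprime p ∧ s ^ m = 1) → pCore p ↥(ι.range ⊓ centralizer {s}) = ⊥

variable {ι : K₀ →* Y} {σ : MulAut Y} (hF : Fr ι σ) {p : ℕ} {V : Y → Prop} {U : Y → Subgroup Y}
  (hE : Env G Ω N) (e : N ≃* K₀)

include hF in
/-- **Transport of the long root data.** -/
theorem lrData (h : YData ι (fixedSubgroup σ) p V U) : LRData (DG hE e ι) p (VG e ι V) (UG e ι U) := by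
  refine ⟨?_, ?_, ?_, ?_, ?_, ?_⟩
  · rintro _ ⟨a, rfl, ha⟩ h1
    exact h.lr.ne _ ha ((Rep.eq_one hF (rep_symm (hE := hE) a)).1 h1)
  · rintro _ ⟨a, rfl, ha⟩ u hu
    rw [UG_symm] at hu
    obtain ⟨b, hb, rfl⟩ := mem_lf.1 hu
    exact (Rep.comm hF (rep_symm (hE := hE) b) (rep_symm a)).2 (h.lr.comm _ ha _ hb)
  · rintro _ ⟨a, rfl, ha⟩
    rw [UG_symm]
    have h1 := h.lr.nil _ ha
    exact Group.nilpotent_of_mulEquiv (lfEquiv e hF.inj (h.ule _ ha)).symm
  · rintro _ ⟨a, rfl, ha⟩ r hr hrp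
    rw [UG_symm, Nat.card_congr (lfEquiv e hF.inj (h.ule _ ha)).toEquiv]
    exact h.lr.card _ ha r hr hrp
  · rintro _ ⟨a, rfl, ha⟩ g ⟨y, hy⟩ hga u hu
    rw [UG_symm] at hu ⊢
    have hy' : Rep hE e ι g y := hy
    have hyI : y ∈ fixedSubgroup σ := Rep.fix hF hy'
    have h1 := (Rep.comm hF hy' (rep_symm a)).1 hga
    have hr : Rep hE e ι u (ι (e ⟨u, lf_le _ hu⟩)) := rep_coe _
    have h2 := (Rep.mem_lf hF (h.ule _ ha) hr).1 hu
    have h3 := h.lr.norm _ ha y hyI h1 _ h2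
    exact (Rep.mem_lf hF (h.ule _ ha) ((hy'.mul hr).mul hy'.inv)).2 h3
  · rintro _ ⟨a, rfl, ha⟩ g ⟨y, hy⟩ hga hg1 r hr hrp hgr
    rw [UG_symm]
    have hy' : Rep hE e ι g y := hy
    have hyI : y ∈ fixedSubgroup σ := Rep.fix hF hy'
    have h1 := (Rep.comm hF hy' (rep_symm a)).1 hga
    have h2 := h.lr.mem _ ha y hyI h1 (fun h3 => hg1 ((Rep.eq_one hF hy').2 h3)) r hr hrp ((Rep.pow_eq_one hF hy' r).1 hgr)
    have key : ∀ z ∈ cmm (U (ι a)) y, ∃ c ∈ cmm (lf e ι (U (ι a))) g, Rep hE e ι c z := by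
      intro z hz
      induction hz using Subgroup.closure_induction with
      | mem z hz =>
        obtain ⟨u, hu, rfl⟩ := hz
        obtain ⟨b, rfl⟩ := h.ule _ ha hu
        have hb : Rep hE e ι (e.symm b : G) (ι b) := rep_symm b
        exact ⟨_, mem_cmm (mem_lf.2 ⟨b, hu, rfl⟩), ((hb.mul hy').mul hb.inv).mul hy'.inv⟩
      | one => exact ⟨1, one_mem _, Rep.one⟩
      | mul z z' _ _ ih ih' =>
        obtain ⟨c, hc, h3⟩ := ih
        obtain ⟨c', hc', h4⟩ := ih'
        exact ⟨c * c', mul_mem hc hc', h3.mul h4⟩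
      | inv z _ ih =>
        obtain ⟨c, hc, h3⟩ := ih
        exact ⟨c⁻¹, inv_mem hc, h3.inv⟩
    obtain ⟨c, hc, h3⟩ := key _ h2
    rwa [Rep.inj hF (rep_symm a) h3]

include hF in
/-- **Transport of useful elements.** -/
theorem useful {g : G} {y : Y} (hy : Rep hE e ι g y) (h : Useful ι.range (fixedSubgroup σ) V y) :
    Useful N (DG hE e ι) (VG e ι V) g := by
  obtain ⟨M, S', i1, i2, π, hMN, hMne, hperf, hπ, hker, hNSA, hnorm, hcen, v, hvM, hV⟩ := h
  refine ⟨lf e ι M, S', i1, i2, π.comp (lfEquiv e hF.inj hMN).toMonoidHom, lf_le M, ?_, ?_, ?_, ?_, hNSA, ?_, ?_, ?_⟩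
  · intro hN
    apply hMne
    refine le_antisymm hMN ?_
    rintro _ ⟨a, rfl⟩
    have h1 : (e.symm a : G) ∈ lf e ι M := by rw [hN]; exact (e.symm a).2
    exact (Rep.mem_lf hF hMN (rep_symm (hE := hE) a)).1 h1
  · exact perfect_equiv (lfEquiv e hF.inj hMN) hperf
  · exact hπ.comp (lfEquiv e hF.inj hMN).surjective
  · intro m hm
    have h1 : lfEquiv e hF.inj hMN m ∈ π.ker := hm
    have h2 := hker h1
    rw [mem_center_iff] at h2 ⊢
    intro m'
    apply (lfEquiv e hF.inj hMN).injective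
    rw [map_mul, map_mul]
    exact h2 _
  · rintro c ⟨z, hz⟩ hcg
    have hz' : Rep hE e ι c z := hz
    have h1 := hnorm z (Rep.fix hF hz') ((Rep.comm hF hz' hy).1 hcg)
    rw [mem_normalizer_iff] at h1 ⊢
    intro m
    constructor
    · intro hm
      have hr : Rep hE e ι m (ι (e ⟨m, lf_le _ hm⟩)) := rep_coe _
      have h2 := (Rep.mem_lf hF hMN hr).1 hm
      exact (Rep.mem_lf hF hMN ((hz'.mul hr).mul hz'.inv)).2 ((h1 _).1 h2)
    · intro hm
      have hr : Rep hE e ι (c * m * c⁻¹) (ι (e ⟨_, lf_le _ hm⟩)) := rep_coe _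
      have h2 := (Rep.mem_lf hF hMN hr).1 hm
      have h3 : m = c⁻¹ * (c * m * c⁻¹) * c⁻¹⁻¹ := by group
      have h4 := (hz'.inv.mul hr).mul hz'.inv.inv
      rw [← h3] at h4
      refine (Rep.mem_lf hF hMN h4).2 ((h1 _).2 ?_)
      have h5 : z * (z⁻¹ * ι (e ⟨_, lf_le _ hm⟩) * z⁻¹⁻¹) * z⁻¹ = ι (e ⟨_, lf_le _ hm⟩) := by group
      rwa [h5]
  · intro m hm
    have hr : Rep hE e ι m (ι (e ⟨m, lf_le _ hm⟩)) := rep_coe _
    exact (Rep.comm hF hy hr).2 (hcen _ ((Rep.mem_lf hF hMN hr).1 hm))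
  · obtain ⟨a, rfl⟩ := hMN hvM
    exact ⟨(e.symm a : G), mem_lf.2 ⟨a, hvM, rfl⟩, a, rfl, hV⟩

/-- the product of the members: its order is the product of the primes -/
theorem card_le_primeFactors {ι' : Type} [Fintype ι'] {x : ι' → G} {r : ι' → ℕ} (hx : PF x r) {D : Subgroup G}
    (hD : ∀ i, x i ∈ D) : ∃ s ∈ D, Fintype.card ι' ≤ (orderOf s).primeFactors.card := by
  classical
  have hp : ∃ p : ℕ, p.Prime ∧ ∀ i, r i ≠ p := by
    obtain ⟨p, hp1, hp2⟩ := Nat.exists_infinite_primes (∑ i, r i + 1)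
    refine ⟨p, hp2, fun i h => ?_⟩
    have := Finset.single_le_sum (f := r) (fun _ _ => Nat.zero_le _) (Finset.mem_univ i)
    omega
  obtain ⟨p, hp1, hp2⟩ := hp
  have := Fintype.ofFinite ↥(Set.univ : Set ι')
  obtain ⟨s, hs, hs1⟩ := exists_gen (fun i : ι' => x i) (fun i => r i) (fun i => hx.prime i)
    (fun i j h => hx.inj h) (fun i => hx.pow i) (fun i j => hx.comm i j)
  refine ⟨s, ?_, ?_⟩
  · have h1 : closure (Set.range fun i : ι' => x i) ≤ D := by
      rw [closure_le]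
      rintro _ ⟨i, rfl⟩
      exact hD i
    exact h1 hs
  · rw [← Finset.card_univ, ← Finset.card_image_of_injective _ hx.inj]
    refine Finset.card_le_card fun q hq => ?_
    obtain ⟨i, -, rfl⟩ := Finset.mem_image.1 hq
    rw [Nat.mem_primeFactors]
    refine ⟨hx.prime i, ?_, (orderOf_pos s).ne'⟩
    have h3 := orderOf_dvd_of_mem_zpowers (hs1 i)
    have : Fact (r i).Prime := ⟨hx.prime i⟩
    rw [orderOf_eq_prime (hx.pow i) (hx.ne i)] at h3
    exact h3

include hF in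
/-- **The engine with data in `Y`.** -/
theorem engineY [Finite ↥(fixedSubgroup σ)] [Finite K₀] [Finite Ω] [Nonempty Ω] (hp : p.Prime)
    (h : YData ι (fixedSubgroup σ) p V U) (hIH : IHx (Nat.card K₀)) {d B k : ℕ} (hd0 : 0 < d)
    (hd : H514.DP.MinDeg K₀ d)
    (hB : ∀ y ∈ fixedSubgroup σ, y ≠ 1 → (∃ r : ℕ, r.Prime ∧ r ≠ p ∧ y ^ r = 1) → ¬ Useful ι.range (fixedSubgroup σ) V y →
      Nat.card ↥(fixedSubgroup σ ⊓ centralizer {y}) ≤ B)
    (hk : ∀ y ∈ fixedSubgroup σ, (orderOf y).primeFactors.card ≤ k)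
    (hnum : (k : ℝ) * (1 / ((d : ℝ) + 1) + √(B : ℝ) / d) < 1) {ι' : Type} [Finite ι'] {x : ι' → G} {r : ι' → ℕ}
    (hx : PF x r) (hcov : Cov Ω x) (hD : ∀ i, act hE e (x i) ∈ InD ι) : False := by
  classical
  have := Fintype.ofFinite ι'
  have hdR : (0 : ℝ) < d := by exact_mod_cast hd0
  refine engine hE e hIH hp (lrData hF hE e h) (le_DG hF) ?_ ?_ ?_ hx hcov hD
  · rintro u ⟨y, hy⟩ hu
    have hy' : Rep hE e ι u y := hy
    exact (Rep.mem_N hF hy').2 (h.pmem y (Rep.fix hF hy') ((Rep.pow_eq_one hF hy' p).1 hu))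
  · rintro s ⟨y, hy⟩ ⟨m, hm, hsm⟩
    have hy' : Rep hE e ι s y := hy
    exact core hF hy' (h.core y (Rep.fix hF hy') ⟨m, hm, (Rep.pow_eq_one hF hy' m).1 hsm⟩)
  · intro z hz _
    refine H368.RC.not_cov_env hE (H := DG hE e ι) (le_DG hF) hd0 (H368.RC.minDeg_surj hd e.symm.toMonoidHom e.symm.surjective)
      (fun i => (hz i).1) (c := fun _ => B) (fun i => ?_) ?_
    · obtain ⟨⟨y, hy⟩, h1, ⟨q, hq, hqp, hzq⟩, hU⟩ := hz i
      have hy' : Rep hE e ι (z i) y := hy
      refine (card_le hF hy').trans (hB y (Rep.fix hF hy') (fun h2 => h1 ((Rep.eq_one hF hy').2 h2))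
        ⟨q, hq, hqp, (Rep.pow_eq_one hF hy' q).1 hzq⟩ fun h2 => hU (useful hF hE e hy' h2))
    · rw [Finset.sum_const, Finset.card_univ, nsmul_eq_mul]
      refine lt_of_le_of_lt (mul_le_mul_of_nonneg_right ?_ (by positivity)) hnum
      obtain ⟨s, ⟨y, hy⟩, h1⟩ := card_le_primeFactors hx (D := DG hE e ι) hD
      have hy' : Rep hE e ι s y := hy
      have h2 : orderOf s = orderOf y := by
        apply Nat.dvd_antisymm
        · exact orderOf_dvd_of_pow_eq_one ((Rep.pow_eq_one hF hy' _).2 (pow_orderOf_eq_one y))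
        · exact orderOf_dvd_of_pow_eq_one ((Rep.pow_eq_one hF hy' _).1 (pow_orderOf_eq_one s))
      rw [h2] at h1
      exact_mod_cast h1.trans (hk y (Rep.fix hF hy'))

end lr

end Cfsg.Agent.H694.RG
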