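import Cfsg.Agent.H368.RG.Engine3
import Cfsg.Agent.H694.RG.Trans

/-!
# S3509: the second engine of helper368 with a predicate of useful elements; transport (helper694)

* `DeadAt Ω D p M y` : as `Dead`, only for elements commuting with `y` (remark of helper338); `dead_at`, `deadAt_self`,
  `deadAt_one`; `UsBy` : as `H368.RG.UsefulBy` with `DeadAt`;
* `engineP`  : as `H368.RG.engine2`; `P` any predicate, `P y → ∃ M, UsBy .. M y` for the `p'`-elements of prime order;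
* `NearPF`   : commuting `p'`-elements of prime orders, the primes are different with one exception;
* `engineP1` : `engineP` with one input `hS` for `NearPF` families;
* `UsY ι I p M y` : `y` is useful by means of `M`, everything in `Y`; `DeadY`, `DeadYAt`, `DeadY.at`, `deadY_lr`, `deadY_self`,
  `deadY_one`, `deadYAt_self`, `deadYAt_one`;
* `usBy` : transport of `UsY`; `nclo_rep` : transport of normal closures;
* `engineYP`, `engineYP1` : the engines with all data in `Y`, `P : Y → Prop`;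
* `engineYPN` : the numbers: bounds `B r` for the centralizers depending on the prime `r`;
* `engineYPX` : the same with a class `X` of elements excluded separately; `kill_lrY`, `kill_mixedY`.
-/

set_option autoImplicit false
set_option linter.unusedSectionVars false
open Cfsg

namespace Cfsg.Agent.H694.RG

open MulAction Subgroup Cfsg.Agent.H106.RC Cfsg.Agent.H327.RG Cfsg.Agent.H368.RG Cfsg.Agent.H873.RG Cfsg.Agent.H380.RC
open Cfsg.Agent.H28.GenF (InD)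
open scoped commutatorElement

/-- commuting nontrivial elements of prime orders `≠ p`, the primes are different, with the exception of one member -/
structure NearPF {ι : Type} {G : Type*} [Group G] (p : ℕ) (z : ι → G) (r : ι → ℕ) : Prop where
  prime : ∀ i, (r i).Prime
  nep : ∀ i, r i ≠ p
  ne : ∀ i, z i ≠ 1
  pow : ∀ i, z i ^ r i = 1
  comm : ∀ i j, z i * z j = z j * z i
  inj : ∃ o : Option ι, ∀ i j, some i ≠ o → some j ≠ o → r i = r j → i = j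

section abs

variable {G Ω : Type} [Group G] [Finite G] [MulAction G Ω] {N D : Subgroup G}

/-- commuting `p'`-elements of prime order of `C_D(M)` commuting with `y` never cover together with the points fixed by
`M` -/
def DeadAt {G : Type} [Group G] (Ω : Type) [MulAction G Ω] (D : Subgroup G) (p : ℕ) (M : Subgroup G) (y : G) : Prop :=
  ∀ (κ : Type) [Finite κ] (z : κ → G), (∀ k, PPr D p (z k) ∧ (∀ m ∈ M, z k * m = m * z k) ∧ z k * y = y * z k) →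
    (∀ k l, z k * z l = z l * z k) → ¬ ∀ ω : Ω, M ≤ stabilizer G ω ∨ ∃ k, z k • ω = ω

/-- `y` is useful by means of `M` -/
structure UsBy {G : Type} [Group G] (Ω : Type) [MulAction G Ω] (N D : Subgroup G) (p : ℕ) (M : Subgroup G) (y : G) :
    Prop where
  good : Good N M
  dead : DeadAt Ω D p M y
  cent : ∀ m ∈ M, y * m = m * y
  norm : ∀ c ∈ D, c * y = y * c → (orderOf c).Coprime (orderOf y) → c ∈ Subgroup.normalizer (M : Set G)

omit [Finite G] in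
theorem dead_at {p : ℕ} {M : Subgroup G} (h : Dead Ω D p M) (y : G) : DeadAt Ω D p M y :=
  fun κ _ z hz hc => h κ z (fun k => ⟨(hz k).1, (hz k).2.1⟩) hc

omit [Finite G] in
theorem usBy_of_usefulBy {p : ℕ} {M : Subgroup G} {y : G} (h : UsefulBy Ω N D p M y) :
    UsBy Ω N D p M y := ⟨h.good, dead_at h.dead y, h.cent, h.norm⟩

omit [Finite G] in
/-- `y ∈ M` of prime order, `C_D(M) ∩ C_D(y) ≤ ⟨y⟩` (elements of prime order) -/
theorem deadAt_self [Nonempty Ω] (hE : Env G Ω N) {p : ℕ} {M : Subgroup G} {y : G} {t : ℕ} (ht : t.Prime) (hyt : y ^ t = 1)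
    (hy1 : y ≠ 1) (hyM : y ∈ M)
    (hc : ∀ z, PPr D p z → (∀ m ∈ M, z * m = m * z) → z * y = y * z → z ∈ Subgroup.zpowers y) : DeadAt Ω D p M y := by
  intro κ _ z hz _ hcov
  refine hE.not_all hy1 fun ω => ?_
  rcases hcov ω with h | ⟨k, hk⟩
  · exact h hyM
  · have h1 : z k ∈ Subgroup.zpowers y := hc _ (hz k).1 (hz k).2.1 (hz k).2.2
    have h3 : y ∈ Subgroup.zpowers (z k) := mem_zpowers_prime ht hyt hy1 h1 (hz k).1.2.1
    have h4 : z k ∈ stabilizer G ω := hk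
    have h6 : Subgroup.zpowers (z k) ≤ stabilizer G ω := by rwa [Subgroup.zpowers_le]
    exact h6 h3

omit [Finite G] in
/-- `C_D(M) ∩ C_D(y) ≤ ⟨y⟩` (elements of prime order) and the rule for one element -/
theorem deadAt_one [Nonempty Ω] (hE : Env G Ω N) {p : ℕ} {M : Subgroup G} {y : G} {t : ℕ} (ht : t.Prime) (hyt : y ^ t = 1)
    (hy1 : y ≠ 1) (hc : ∀ z, PPr D p z → (∀ m ∈ M, z * m = m * z) → z * y = y * z → z ∈ Subgroup.zpowers y)
    {v : G} (hvM : v ∈ M) (hv : v ≠ 1)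
    {U : Subgroup G} (hU : ∀ u ∈ U, u * v = v * u) (hvU : v ∈ cmm U y) : DeadAt Ω D p M y := by
  intro κ _ z hz _ hcov
  refine not_cov_one hE (x := y) (y := v) (U := U) (fun ω => ?_) hU hv hvU
  rcases hcov ω with h | ⟨k, hk⟩
  · exact Or.inl (h hvM)
  · right
    have h1 : z k ∈ stabilizer G ω := hk
    have h2 : Subgroup.zpowers (z k) ≤ stabilizer G ω := by rwa [Subgroup.zpowers_le]
    exact h2 (mem_zpowers_prime ht hyt hy1 (hc _ (hz k).1 (hz k).2.1 (hz k).2.2) (hz k).1.2.1)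

omit [Finite G] in
/-- a member useful by `M`: the whole family normalises `M` -/
theorem norm_allW {ι : Type} {p : ℕ} {x : ι → G} {r : ι → ℕ} (hx : PF x r) (hD : ∀ i, x i ∈ D) {i₁ : ι} {M : Subgroup G}
    (hU : UsBy Ω N D p M (x i₁)) (i : ι) : x i ∈ Subgroup.normalizer (M : Set G) := by
  by_cases hi : i = i₁
  · subst hi
    exact mem_normalizer_of_comm hU.cent
  · refine hU.norm _ (hD i) (hx.comm i i₁) ?_
    rw [orderOf_eq_prime (hx.pow i) (hx.ne i) (hp := ⟨hx.prime i⟩),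
      orderOf_eq_prime (hx.pow i₁) (hx.ne i₁) (hp := ⟨hx.prime i₁⟩), Nat.coprime_primes (hx.prime i) (hx.prime i₁)]
    exact fun h => hi (hx.inj h)

/-- **One useful member, the element of order `p` does not centralise `M`.** -/
theorem case_dropW {S ι : Type} [Group S] [Finite S] [Finite ι] (e : N ≃* S)
    (hIH : IHx (Nat.card S)) {p : ℕ} {x : ι → G} {r : ι → ℕ} (hx : PF x r) (hcov : Cov Ω x) (hD : ∀ i, x i ∈ D)
    {M : Subgroup G} (hG : Good N M) {y₀ : G} (hy₀ : ∀ i, x i * y₀ = y₀ * x i) (hdead : DeadAt Ω D p M y₀)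
    (hnx : ∀ i, x i ∈ Subgroup.normalizer (M : Set G))
    (hp : ∀ i, (∀ m ∈ M, x i * m = m * x i) → r i ≠ p) : False := by
  obtain ⟨S', _, _, π, hπ, hker, hNSA⟩ := hG.quot
  have h1 : ∀ ω : Ω, False ∨ M ≤ stabilizer G ω ∨ ∃ j, (∀ m ∈ M, x j * m = m * x j) ∧ x j • ω = ω :=
    fun ω => mstep hIH e hG.le hG.ne hG.perf π hπ hker hNSA hx hnx (P := fun _ => False) (fun _ _ _ h => h)
      (fun ω => Or.inr (hcov ω)) ω
  refine hdead {j // ∀ m ∈ M, x j * m = m * x j} (fun j => x j)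
    (fun j => ⟨⟨hD j, hx.ne j, r j, hx.prime j, hp j j.2, hx.pow j⟩, j.2, hy₀ j⟩) (fun i j => hx.comm i j) (fun ω => ?_)
  rcases h1 ω with h | h | ⟨j, hj, h⟩
  · exact h.elim
  · exact Or.inl h
  · exact Or.inr ⟨⟨j, hj⟩, h⟩

/-- **The end of the mixed cases**: `y` centralises `M`, the `x j` (`j ≠ i₀`) normalise `M`, together they cover. -/
theorem finishW {S ι : Type} [Group S] [Finite S] [Finite ι] (e : N ≃* S)
    (hIH : IHx (Nat.card S)) {p : ℕ} {x : ι → G} {r : ι → ℕ} (hx : PF x r) (hD : ∀ i, x i ∈ D) {i₀ : ι}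
    (hrne : ∀ i, i ≠ i₀ → r i ≠ p) {M : Subgroup G} (hG : Good N M) {y₀ : G} (hy₀ : ∀ i, i ≠ i₀ → x i * y₀ = y₀ * x i)
    (hdead : DeadAt Ω D p M y₀) {y : G} (hy : PPr D p y) (hyy : y * y₀ = y₀ * y)
    (hyM : ∀ m ∈ M, y * m = m * y) (hyx : ∀ i, i ≠ i₀ → y * x i = x i * y)
    (hnx : ∀ i, i ≠ i₀ → x i ∈ Subgroup.normalizer (M : Set G))
    (hcov : ∀ ω : Ω, (∃ j, j ≠ i₀ ∧ x j • ω = ω) ∨ y • ω = ω) : False := by
  obtain ⟨S', _, _, π, hπ, hker, hNSA⟩ := hG.quot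
  have hx' : PF (fun j : {j // j ≠ i₀} => x j) (fun j => r j) :=
    ⟨fun i => hx.prime i, fun i j h => Subtype.ext (hx.inj h), fun i => hx.pow i, fun i => hx.ne i,
      fun i j => hx.comm i j⟩
  have h3 : ∀ ω : Ω, y • ω = ω ∨ M ≤ stabilizer G ω ∨
      ∃ j : {j // j ≠ i₀}, (∀ m ∈ M, x j * m = m * x j) ∧ x j • ω = ω := by
    refine fun ω => mstep hIH e hG.le hG.ne hG.perf π hπ hker hNSA hx' (fun i => hnx i i.2)
      (P := fun ω => y • ω = ω) ?_ ?_ ω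
    · intro m hm ω h
      rw [← mul_smul, hyM m hm, mul_smul] at h
      exact MulAction.injective m h
    · intro ω
      rcases hcov ω with ⟨j, hj, h⟩ | h
      · exact Or.inr ⟨⟨j, hj⟩, h⟩
      · exact Or.inl h
  refine hdead (Option {j : {j // j ≠ i₀} // ∀ m ∈ M, x j * m = m * x j}) (fun o => o.elim y fun j => x j.1) ?_ ?_ ?_
  · rintro (_ | j)
    · exact ⟨hy, hyM, hyy⟩
    · exact ⟨⟨hD _, hx.ne _, r j.1, hx.prime _, hrne _ j.1.2, hx.pow _⟩, j.2, hy₀ _ j.1.2⟩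
  · rintro (_ | i) (_ | j)
    · rfl
    · exact hyx j.1 j.1.2
    · exact (hyx i.1 i.1.2).symm
    · exact hx.comm i.1 j.1
  · intro ω
    rcases h3 ω with h | h | ⟨j, hj, h⟩
    · exact Or.inr ⟨none, h⟩
    · exact Or.inl h
    · exact Or.inr ⟨some ⟨j, hj⟩, h⟩

/-- **One useful member, the element of order `p` centralises `M`.** -/
theorem case_centW {S ι : Type} [Group S] [Finite S] [Finite ι] (e : N ≃* S) (hIH : IHx (Nat.card S))
    {p : ℕ} (hp : p.Prime) (hND : N ≤ D) (hpN : ∀ u ∈ D, u ^ p = 1 → u ∈ N)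
    (hB : ∀ s ∈ D, (∃ m : ℕ, m.Coprime p ∧ s ^ m = 1) → pCore p ↥(N ⊓ Subgroup.centralizer {s}) = ⊥)
    {x : ι → G} {r : ι → ℕ} (hx : PF x r) (hcov : Cov Ω x) (hD : ∀ i, x i ∈ D)
    {i₀ i₁ : ι} (hi₀ : r i₀ = p) (hi₁ : i₁ ≠ i₀) {M : Subgroup G} (hU : UsBy Ω N D p M (x i₁))
    (hu : ∀ m ∈ M, x i₀ * m = m * x i₀) : False := by
  classical
  have hrne : ∀ i, i ≠ i₀ → r i ≠ p := fun i hi h => hi (hx.inj (h.trans hi₀.symm))
  have huN : x i₀ ∈ N := hpN _ (hD i₀) (by rw [← hi₀]; exact hx.pow i₀)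
  let J : Set ι := {j | j ≠ i₀}
  obtain ⟨s, hsD, hsm, hsc⟩ := exists_s hx hp J (fun i hi => hrne i hi) D hD
  set C : Subgroup G := N ⊓ Subgroup.centralizer {s} with hCdef
  have hCx : ∀ c ∈ C, ∀ j ∈ J, c * x j = x j * c := fun c hc =>
    (hsc c).1 (Subgroup.mem_centralizer_singleton_iff.1 hc.2)
  set C' : Subgroup G := cop C (orderOf (x i₁)) with hC'def
  have hC'M : ∀ c ∈ C', c ∈ Subgroup.normalizer (M : Set G) := by
    have h : C' ≤ Subgroup.normalizer (M : Set G) := by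
      rw [hC'def, cop, Subgroup.closure_le]
      rintro c ⟨hc, h1⟩
      exact hU.norm c (hND hc.1) (hCx c hc i₁ hi₁) h1
    exact fun c hc => h hc
  have hC'C : C' ≤ C := cop_le _ _
  have hC'p : pCore p ↥C' = ⊥ := pCore_bot_of_normal hC'C (fun c hc z hz => cop_conj hc hz) (hB s hsD hsm)
  set F : Subgroup G := C' ⊓ Subgroup.centralizer (M : Set G) with hFdef
  have hFM : ∀ c ∈ F, ∀ m ∈ M, c * m = m * c := fun c hc m hm =>
    ((Subgroup.mem_centralizer_iff.1 hc.2) m hm).symm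
  have huC : x i₀ ∈ C := by
    refine ⟨huN, ?_⟩
    exact Subgroup.mem_centralizer_singleton_iff.2 ((hsc _).2 fun i _ => hx.comm i₀ i)
  have huF : x i₀ ∈ F := by
    refine ⟨mem_cop huC ?_, ?_⟩
    · rw [orderOf_eq_prime (hx.pow i₀) (hx.ne i₀) (hp := ⟨hx.prime i₀⟩),
        orderOf_eq_prime (hx.pow i₁) (hx.ne i₁) (hp := ⟨hx.prime i₁⟩), Nat.coprime_primes (hx.prime i₀) (hx.prime i₁)]
      exact fun h => hi₁ (hx.inj h).symm
    · exact Subgroup.mem_centralizer_iff.2 fun m hm => (hu m hm).symm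
  obtain ⟨y, hyK, hy1, t, ht, htp, hyt⟩ := exists_y (C := C') (F := F) inf_le_left hC'p (by
    intro c hc z hz
    exact ⟨C'.mul_mem (C'.mul_mem hc hz.1) (C'.inv_mem hc), Subgroup.mem_centralizer_iff.2 fun m hm =>
      (normalizer_cent (hC'M c hc) (hFM z hz) m hm).symm⟩) huF (hx.ne i₀)
  have hyF : y ∈ F := nclo_le huF hyK
  refine finishW e hIH hx hD hrne hU.good (y₀ := x i₁) (fun i _ => hx.comm i i₁) hU.dead (y := y)
    ⟨hND (hC'C hyF.1).1, hy1, t, ht, htp, hyt⟩ (hCx y (hC'C hyF.1) i₁ hi₁) (hFM y hyF)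
    (fun i hi => hCx y (hC'C hyF.1) i hi) (fun i _ => norm_allW hx hD hU i) (fun ω => ?_)
  refine nclo_fix (F := F) (u := x i₀) (P := fun ω => ∃ j, j ≠ i₀ ∧ x j • ω = ω) ?_ ?_ hyK ω
  · rintro c hc ω ⟨j, hj, h⟩
    refine ⟨j, hj, ?_⟩
    rw [← mul_smul, ← hCx c (hC'C hc.1) j hj, mul_smul] at h
    exact MulAction.injective c h
  · intro ω
    obtain ⟨j, h⟩ := hcov ω
    by_cases hji : j = i₀
    · right; rw [← hji]; exact h
    · exact Or.inl ⟨j, hji, h⟩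

/-- **The engine, second form, `P` a predicate of useful elements.** -/
theorem engineP {S ι : Type} [Group S] [Finite S] [Finite ι] (e : N ≃* S)
    (hIH : IHx (Nat.card S)) {p : ℕ} (hp : p.Prime) (hND : N ≤ D) (hpN : ∀ u ∈ D, u ^ p = 1 → u ∈ N)
    (hB : ∀ s ∈ D, (∃ m : ℕ, m.Coprime p ∧ s ^ m = 1) → pCore p ↥(N ⊓ Subgroup.centralizer {s}) = ⊥)
    (P : G → Prop) (hP : ∀ y, PPr D p y → P y → ∃ M, UsBy Ω N D p M y)
    (hM3 : ∀ (y x : G) (t : ℕ), t.Prime → t ≠ p → y ∈ N → y ≠ 1 → y ^ t = 1 → x ∈ D → x ≠ 1 → x ^ t = 1 → y * x = x * y →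
      P y → ¬ P x → ∃ M, UsBy Ω N D p M y ∧ x ∈ Subgroup.normalizer (M : Set G))
    (hS1 : ∀ (x : ι → G) (r : ι → ℕ), PF x r → (∀ i, x i ∈ D) → (∀ i, r i ≠ p) → (∀ i, ¬ P (x i)) → ¬ Cov Ω x)
    (hS2 : ∀ (x : ι → G) (r : ι → ℕ) (i₀ : ι), PF x r → (∀ i, x i ∈ D) → r i₀ = p → x i₀ ∈ N →
      (∀ i, i ≠ i₀ → ¬ P (x i)) →
      (∀ y ∈ nclo (N ⊓ ⨅ i : {i // i ≠ i₀}, Subgroup.centralizer {x i}) (x i₀), PPr D p y → ¬ P y) →
      ¬ Cov Ω x)
    {x : ι → G} {r : ι → ℕ} (hx : PF x r) (hcov : Cov Ω x) (hD : ∀ i, x i ∈ D) : False := by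
  classical
  by_cases hpi : ∃ i, r i = p
  · obtain ⟨i₀, hi₀⟩ := hpi
    have hrne : ∀ i, i ≠ i₀ → r i ≠ p := fun i hi h => hi (hx.inj (h.trans hi₀.symm))
    have huN : x i₀ ∈ N := hpN _ (hD i₀) (by rw [← hi₀]; exact hx.pow i₀)
    by_cases hU : ∃ i, i ≠ i₀ ∧ P (x i)
    · obtain ⟨i₁, hi₁, hPi⟩ := hU
      obtain ⟨M, hM⟩ := hP (x i₁) ⟨hD i₁, hx.ne i₁, r i₁, hx.prime i₁, hrne i₁ hi₁, hx.pow i₁⟩ hPi
      by_cases hu : ∀ m ∈ M, x i₀ * m = m * x i₀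
      · exact case_centW e hIH hp hND hpN hB hx hcov hD hi₀ hi₁ hM hu
      · exact case_dropW e hIH hx hcov hD hM.good (fun i => hx.comm i i₁) hM.dead (norm_allW hx hD hM)
          fun i hi => hrne i fun h => hu (by rw [← h]; exact hi)
    · push Not at hU
      by_contra _
      refine hS2 x r i₀ hx hD hi₀ huN hU (fun y hyK hyP hyU => ?_) hcov
      set C : Subgroup G := N ⊓ ⨅ i : {i // i ≠ i₀}, Subgroup.centralizer {x i} with hCdef
      have hCx : ∀ c ∈ C, ∀ j, j ≠ i₀ → c * x j = x j * c := fun c hc j hj =>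
        Subgroup.mem_centralizer_singleton_iff.1 ((Subgroup.mem_iInf.1 hc.2) ⟨j, hj⟩)
      have huC : x i₀ ∈ C := ⟨huN, Subgroup.mem_iInf.2 fun j => Subgroup.mem_centralizer_singleton_iff.2 (hx.comm i₀ j)⟩
      have hyC : y ∈ C := nclo_le huC hyK
      obtain ⟨-, hy1, t, ht, htp, hyt⟩ := id hyP
      have h2 : ∀ ω : Ω, (∃ j, j ≠ i₀ ∧ x j • ω = ω) ∨ y • ω = ω := by
        refine fun ω => nclo_fix (F := C) (u := x i₀) (P := fun ω => ∃ j, j ≠ i₀ ∧ x j • ω = ω) ?_ ?_ hyK ω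
        · rintro c hc ω ⟨j, hj, h⟩
          refine ⟨j, hj, ?_⟩
          rw [← mul_smul, ← hCx c hc j hj, mul_smul] at h
          exact MulAction.injective c h
        · intro ω
          obtain ⟨j, h⟩ := hcov ω
          by_cases hji : j = i₀
          · right; rw [← hji]; exact h
          · exact Or.inl ⟨j, hji, h⟩
      by_cases hti : ∃ i₁, i₁ ≠ i₀ ∧ r i₁ = t
      · obtain ⟨i₁, hi₁, hrt⟩ := hti
        obtain ⟨M, hM, hx1⟩ := hM3 y (x i₁) t ht htp hyC.1 hy1 hyt (hD i₁) (hx.ne i₁) (by rw [← hrt]; exact hx.pow i₁)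
          (hCx y hyC i₁ hi₁) hyU (hU i₁ hi₁)
        refine finishW e hIH hx hD hrne hM.good (fun i hi => (hCx y hyC i hi).symm) hM.dead hyP rfl hM.cent
          (fun i hi => hCx y hyC i hi) (fun i hi => ?_) h2
        by_cases h : i = i₁
        · rw [h]; exact hx1
        · refine hM.norm _ (hD i) (hCx y hyC i hi).symm ?_
          rw [orderOf_eq_prime (hx.pow i) (hx.ne i) (hp := ⟨hx.prime i⟩), orderOf_eq_prime hyt hy1 (hp := ⟨ht⟩),
            Nat.coprime_primes (hx.prime i) ht, ← hrt]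
          exact fun h' => h (hx.inj h')
      · push Not at hti
        obtain ⟨M, hM⟩ := hP y hyP hyU
        refine finishW e hIH hx hD hrne hM.good (fun i hi => (hCx y hyC i hi).symm) hM.dead hyP rfl hM.cent
          (fun i hi => hCx y hyC i hi) (fun i hi => ?_) h2
        refine hM.norm _ (hD i) (hCx y hyC i hi).symm ?_
        rw [orderOf_eq_prime (hx.pow i) (hx.ne i) (hp := ⟨hx.prime i⟩), orderOf_eq_prime hyt hy1 (hp := ⟨ht⟩),
          Nat.coprime_primes (hx.prime i) ht]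
        exact hti i hi
  · push Not at hpi
    by_cases hU : ∃ i, P (x i)
    · obtain ⟨i₁, hPi⟩ := hU
      obtain ⟨M, hM⟩ := hP (x i₁) ⟨hD i₁, hx.ne i₁, r i₁, hx.prime i₁, hpi i₁, hx.pow i₁⟩ hPi
      exact case_dropW e hIH hx hcov hD hM.good (fun i => hx.comm i i₁) hM.dead (norm_allW hx hD hM) fun i _ => hpi i
    · push Not at hU
      exact hS1 x r hx hD hpi hU hcov

/-- a mixed cover without useful members: exchange of the element of order `p` -/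
theorem exchange {ι : Type} [Finite ι] {p : ℕ} (hp : p.Prime) (hND : N ≤ D)
    (hB : ∀ s ∈ D, (∃ m : ℕ, m.Coprime p ∧ s ^ m = 1) → pCore p ↥(N ⊓ Subgroup.centralizer {s}) = ⊥)
    (P : G → Prop) {x : ι → G} {r : ι → ℕ} {i₀ : ι} (hx : PF x r) (hD : ∀ i, x i ∈ D) (hi₀ : r i₀ = p) (huN : x i₀ ∈ N)
    (hU : ∀ i, i ≠ i₀ → ¬ P (x i))
    (hyU : ∀ y ∈ nclo (N ⊓ ⨅ i : {i // i ≠ i₀}, Subgroup.centralizer {x i}) (x i₀), PPr D p y → ¬ P y)
    (hcov : Cov Ω x) : ∃ (z : ι → G) (r' : ι → ℕ), (∀ i, z i ∈ D ∧ ¬ P (z i)) ∧ NearPF p z r' ∧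
      (∀ i, i ≠ i₀ → z i = x i ∧ r' i = r i) ∧ Cov Ω z := by
  classical
  have hrne : ∀ i, i ≠ i₀ → r i ≠ p := fun i hi h => hi (hx.inj (h.trans hi₀.symm))
  obtain ⟨s, hsD, hsm, hsc⟩ := exists_s hx hp {i | i ≠ i₀} (fun i hi => hrne i hi) D hD
  set C : Subgroup G := N ⊓ ⨅ i : {i // i ≠ i₀}, Subgroup.centralizer {x i} with hCdef
  have hCs : C = N ⊓ Subgroup.centralizer {s} := by
    ext c
    rw [hCdef, Subgroup.mem_inf, Subgroup.mem_inf, Subgroup.mem_iInf, Subgroup.mem_centralizer_singleton_iff, hsc]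
    refine and_congr Iff.rfl ⟨fun h i hi => Subgroup.mem_centralizer_singleton_iff.1 (h ⟨i, hi⟩),
      fun h i => Subgroup.mem_centralizer_singleton_iff.2 (h i i.2)⟩
  have hCx : ∀ c ∈ C, ∀ j, j ≠ i₀ → c * x j = x j * c := fun c hc j hj =>
    Subgroup.mem_centralizer_singleton_iff.1 ((Subgroup.mem_iInf.1 hc.2) ⟨j, hj⟩)
  have huC : x i₀ ∈ C := ⟨huN, Subgroup.mem_iInf.2 fun j => Subgroup.mem_centralizer_singleton_iff.2 (hx.comm i₀ j)⟩
  obtain ⟨y, hyK, hy1, t, ht, htp, hyt⟩ := exists_y (C := C) (F := C) le_rfl (by rw [hCs]; exact hB s hsD hsm)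
    (fun c hc z hz => C.mul_mem (C.mul_mem hc hz) (C.inv_mem hc)) huC (hx.ne i₀)
  have hyC : y ∈ C := nclo_le huC hyK
  have hyP : PPr D p y := ⟨hND hyC.1, hy1, t, ht, htp, hyt⟩
  refine ⟨Function.update x i₀ y, Function.update r i₀ t, fun i => ?_,
    ⟨fun i => ?_, fun i => ?_, fun i => ?_, fun i => ?_, fun i j => ?_, some i₀, fun i j hi hj hij => ?_⟩,
    fun i hi => ⟨Function.update_of_ne hi _ _, Function.update_of_ne hi _ _⟩, fun ω => ?_⟩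
  · by_cases hi : i = i₀
    · subst hi
      rw [Function.update_self]
      exact ⟨hND hyC.1, hyU y hyK hyP⟩
    · rw [Function.update_of_ne hi]
      exact ⟨hD i, hU i hi⟩
  · by_cases hi : i = i₀
    · subst hi
      rw [Function.update_self]
      exact ht
    · rw [Function.update_of_ne hi]
      exact hx.prime i
  · by_cases hi : i = i₀
    · subst hi
      rw [Function.update_self]
      exact htp
    · rw [Function.update_of_ne hi]
      exact hrne i hi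
  · by_cases hi : i = i₀
    · subst hi
      rw [Function.update_self]
      exact hy1
    · rw [Function.update_of_ne hi]
      exact hx.ne i
  · by_cases hi : i = i₀
    · subst hi
      rw [Function.update_self, Function.update_self]
      exact hyt
    · rw [Function.update_of_ne hi, Function.update_of_ne hi]
      exact hx.pow i
  · by_cases hi : i = i₀ <;> by_cases hj : j = i₀
    · rw [hi, hj]
    · rw [hi, Function.update_self, Function.update_of_ne hj]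
      exact hCx y hyC j hj
    · rw [hj, Function.update_self, Function.update_of_ne hi]
      exact (hCx y hyC i hi).symm
    · rw [Function.update_of_ne hi, Function.update_of_ne hj]
      exact hx.comm i j
  · have hi' : i ≠ i₀ := fun h => hi (by rw [h])
    have hj' : j ≠ i₀ := fun h => hj (by rw [h])
    rw [Function.update_of_ne hi', Function.update_of_ne hj'] at hij
    exact hx.inj hij
  · have h2 : (∃ j, j ≠ i₀ ∧ x j • ω = ω) ∨ y • ω = ω := by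
      refine nclo_fix (F := C) (u := x i₀) (P := fun ω => ∃ j, j ≠ i₀ ∧ x j • ω = ω) ?_ ?_ hyK ω
      · rintro c hc ω ⟨j, hj, h⟩
        refine ⟨j, hj, ?_⟩
        rw [← mul_smul, ← hCx c hc j hj, mul_smul] at h
        exact MulAction.injective c h
      · intro ω
        obtain ⟨j, h⟩ := hcov ω
        by_cases hji : j = i₀
        · right; rw [← hji]; exact h
        · exact Or.inl ⟨j, hji, h⟩
    rcases h2 with ⟨j, hj, h⟩ | h
    · exact ⟨j, by rwa [Function.update_of_ne hj]⟩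
    · exact ⟨i₀, by rwa [Function.update_self]⟩

/-- **The engine with one input for the families without useful members.** -/
theorem engineP1 {S ι : Type} [Group S] [Finite S] [Finite ι] (e : N ≃* S)
    (hIH : IHx (Nat.card S)) {p : ℕ} (hp : p.Prime) (hND : N ≤ D) (hpN : ∀ u ∈ D, u ^ p = 1 → u ∈ N)
    (hB : ∀ s ∈ D, (∃ m : ℕ, m.Coprime p ∧ s ^ m = 1) → pCore p ↥(N ⊓ Subgroup.centralizer {s}) = ⊥)
    (P : G → Prop) (hP : ∀ y, PPr D p y → P y → ∃ M, UsBy Ω N D p M y)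
    (hM3 : ∀ (y x : G) (t : ℕ), t.Prime → t ≠ p → y ∈ N → y ≠ 1 → y ^ t = 1 → x ∈ D → x ≠ 1 → x ^ t = 1 → y * x = x * y →
      P y → ¬ P x → ∃ M, UsBy Ω N D p M y ∧ x ∈ Subgroup.normalizer (M : Set G))
    (hS : ∀ (z : ι → G) (r : ι → ℕ), (∀ i, z i ∈ D ∧ ¬ P (z i)) → NearPF p z r → ¬ Cov Ω z)
    {x : ι → G} {r : ι → ℕ} (hx : PF x r) (hcov : Cov Ω x) (hD : ∀ i, x i ∈ D) : False := by
  refine engineP e hIH hp hND hpN hB P hP hM3 ?_ ?_ hx hcov hD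
  · intro x r hx hD hrp hU
    exact hS x r (fun i => ⟨hD i, hU i⟩) ⟨hx.prime, hrp, hx.ne, hx.pow, hx.comm, none, fun i j _ _ h => hx.inj h⟩
  · intro x r i₀ hx hD hi₀ huN hU hyU hcov
    obtain ⟨z, r', h1, h2, -, h3⟩ := exchange hp hND hB P hx hD hi₀ huN hU hyU hcov
    exact hS z r' h1 h2 h3

end abs

/-! ### the data in `Y` -/

section Y

variable {G Ω : Type} [Group G] [Finite G] [MulAction G Ω] {N : Subgroup G} {Y K₀ : Type} [Group Y] [Group K₀]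
  {ι : K₀ →* Y} {σ : MulAut Y} (hF : Fr ι σ) {p : ℕ} {V : Y → Prop} {U : Y → Subgroup Y}
  (hE : Env G Ω N) (e : N ≃* K₀)

/-- `M` is dead for every `G`, `Ω` -/
def DeadY (ι : K₀ →* Y) (p : ℕ) (M : Subgroup Y) : Prop :=
  ∀ (G Ω : Type) [Group G] [Finite G] [MulAction G Ω] [Nonempty Ω] (N : Subgroup G) (hE : Env G Ω N) (e : N ≃* K₀),
    Dead Ω (DG hE e ι) p (lf e ι M)

/-- `M` is dead at `y` for every `G`, `Ω` -/
def DeadYAt (ι : K₀ →* Y) (p : ℕ) (M : Subgroup Y) (y : Y) : Prop :=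
  ∀ (G Ω : Type) [Group G] [Finite G] [MulAction G Ω] [Nonempty Ω] (N : Subgroup G) (hE : Env G Ω N) (e : N ≃* K₀) (g : G),
    Rep hE e ι g y → DeadAt Ω (DG hE e ι) p (lf e ι M) g

theorem DeadY.at {M : Subgroup Y} (h : DeadY ι p M) (y : Y) : DeadYAt ι p M y :=
  fun G Ω _ _ _ _ N hE e g _ => dead_at (h G Ω N hE e) g

/-- `y` is useful by means of `M`, in `Y` (`I = Y^σ`) -/
structure UsY (ι : K₀ →* Y) (I : Subgroup Y) (p : ℕ) (M : Subgroup Y) (y : Y) : Prop where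
  le : M ≤ ι.range
  ne : M ≠ ι.range
  perf : ⁅M, M⁆ = M
  quot : ∃ (S' : Type) (_ : Group S') (_ : Finite S') (π : M →* S'),
    Function.Surjective π ∧ π.ker ≤ Subgroup.center M ∧ NSA S'
  dead : DeadYAt ι p M y
  cent : ∀ m ∈ M, y * m = m * y
  norm : ∀ c ∈ I, c * y = y * c → (orderOf c).Coprime (orderOf y) → c ∈ Subgroup.normalizer (M : Set Y)

include hF in
theorem Rep.orderOf {g : G} {y : Y} (h : Rep hE e ι g y) : orderOf g = orderOf y := by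
  apply Nat.dvd_antisymm
  · exact orderOf_dvd_of_pow_eq_one ((Rep.pow_eq_one hF h _).2 (pow_orderOf_eq_one y))
  · exact orderOf_dvd_of_pow_eq_one ((Rep.pow_eq_one hF h _).1 (pow_orderOf_eq_one g))

include hF in
/-- transport of normalisers -/
theorem Rep.normalizer {M : Subgroup Y} (hM : M ≤ ι.range) {c : G} {z : Y} (hz : Rep hE e ι c z)
    (h1 : z ∈ Subgroup.normalizer (M : Set Y)) : c ∈ Subgroup.normalizer (lf e ι M : Set G) := by
  rw [mem_normalizer_iff] at h1 ⊢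
  intro m
  constructor
  · intro hm
    have hr : Rep hE e ι m (ι (e ⟨m, lf_le _ hm⟩)) := rep_coe _
    have h2 := (Rep.mem_lf hF hM hr).1 hm
    exact (Rep.mem_lf hF hM ((hz.mul hr).mul hz.inv)).2 ((h1 _).1 h2)
  · intro hm
    have hr : Rep hE e ι (c * m * c⁻¹) (ι (e ⟨_, lf_le _ hm⟩)) := rep_coe _
    have h2 := (Rep.mem_lf hF hM hr).1 hm
    have h3 : m = c⁻¹ * (c * m * c⁻¹) * c⁻¹⁻¹ := by group
    have h4 := (hz.inv.mul hr).mul hz.inv.inv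
    rw [← h3] at h4
    refine (Rep.mem_lf hF hM h4).2 ((h1 _).2 ?_)
    have h5 : z * (z⁻¹ * ι (e ⟨_, lf_le _ hm⟩) * z⁻¹⁻¹) * z⁻¹ = ι (e ⟨_, lf_le _ hm⟩) := by group
    rwa [h5]

include hF in
/-- transport of `PPr` -/
theorem Rep.ppr {g : G} {y : Y} (h : Rep hE e ι g y) : PPr (DG hE e ι) p g ↔ PPr (fixedSubgroup σ) p y := by
  constructor
  · rintro ⟨-, h1, r, h2, h3, h4⟩
    exact ⟨Rep.fix hF h, fun h5 => h1 ((Rep.eq_one hF h).2 h5), r, h2, h3, (Rep.pow_eq_one hF h r).1 h4⟩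
  · rintro ⟨-, h1, r, h2, h3, h4⟩
    exact ⟨⟨y, h⟩, fun h5 => h1 ((Rep.eq_one hF h).1 h5), r, h2, h3, (Rep.pow_eq_one hF h r).2 h4⟩

include hF in
/-- **Transport of useful elements.** -/
theorem usBy [Nonempty Ω] {g : G} {y : Y} (hy : Rep hE e ι g y) {M : Subgroup Y}
    (h : UsY ι (fixedSubgroup σ) p M y) : UsBy Ω N (DG hE e ι) p (lf e ι M) g := by
  obtain ⟨hMN, hMne, hperf, ⟨S', i1, i2, π, hπ, hker, hNSA⟩, hdead, hcen, hnorm⟩ := h
  refine ⟨⟨lf_le M, ?_, ?_, ⟨S', i1, i2, π.comp (lfEquiv e hF.inj hMN).toMonoidHom, ?_, ?_, hNSA⟩⟩,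
    hdead G Ω N hE e g hy, ?_, ?_⟩
  · intro hN
    apply hMne
    refine le_antisymm hMN ?_
    rintro _ ⟨a, rfl⟩
    have h1 : (e.symm a : G) ∈ lf e ι M := by rw [hN]; exact (e.symm a).2
    exact (Rep.mem_lf hF hMN (rep_symm (hE := hE) a)).1 h1
  · exact perfect_equiv (lfEquiv e hF.inj hMN) hperf
  · exact hπ.comp (lfEquiv e hF.inj hMN).surjective
  · intro m hm
    have h1 : lfEquiv e hF.inj hMN m ∈ π.ker := hm
    have h2 := hker h1
    rw [mem_center_iff] at h2 ⊢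
    intro m'
    apply (lfEquiv e hF.inj hMN).injective
    rw [map_mul, map_mul]
    exact h2 _
  · intro m hm
    have hr : Rep hE e ι m (ι (e ⟨m, lf_le _ hm⟩)) := rep_coe _
    exact (Rep.comm hF hy hr).2 (hcen _ ((Rep.mem_lf hF hMN hr).1 hm))
  · rintro c ⟨z, hz⟩ hcg hcop
    have hz' : Rep hE e ι c z := hz
    refine Rep.normalizer hF hE e hMN hz' (hnorm z (Rep.fix hF hz') ((Rep.comm hF hz' hy).1 hcg) ?_)
    rwa [Rep.orderOf hF hE e hz', Rep.orderOf hF hE e hy] at hcop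

include hF in
/-- a quasisimple group with a long root element is dead -/
theorem deadY_lr (h : LRData (fixedSubgroup σ) p V U) (hv1 : ∀ v, V v → v ∈ ι.range) (hv2 : ∀ v, V v → U v ≤ ι.range)
    (hc : ∀ s ∈ fixedSubgroup σ, (∃ m : ℕ, m.Coprime p ∧ s ^ m = 1) → pCore p ↥(ι.range ⊓ centralizer {s}) = ⊥)
    (hpm : ∀ y ∈ fixedSubgroup σ, y ^ p = 1 → y ∈ ι.range) {M : Subgroup Y} {v : Y} (hvM : v ∈ M) (hv : V v) :
    DeadY ι p M := by
  intro G Ω _ _ _ _ N hE e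
  obtain ⟨a, ha⟩ := hv1 v hv
  refine dead_lr hE (lrData hF hE e ⟨h, hv1, hv2, hpm, hc⟩) (v := (e.symm a : G)) (mem_lf.2 ⟨a, ?_, rfl⟩) ⟨a, rfl, ?_⟩
  · rw [ha]; exact hvM
  · rw [ha]; exact hv

include hF in
theorem YData.dead (h : YData ι (fixedSubgroup σ) p V U) {M : Subgroup Y} {v : Y} (hvM : v ∈ M) (hv : V v) :
    DeadY ι p M := deadY_lr hF h.lr h.vmem h.ule h.core h.pmem hvM hv

include hF in
theorem rep_zpowers {M : Subgroup Y} {g : G} {y : Y} (hr : Rep hE e ι g y) {t : ℕ} (ht : 0 < t) (hyt : y ^ t = 1)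
    (hc : ∀ z ∈ fixedSubgroup σ, (∀ m ∈ M, z * m = m * z) → z ∈ Subgroup.zpowers y) (hM : M ≤ ι.range) :
    ∀ z ∈ DG hE e ι, (∀ m ∈ lf e ι M, z * m = m * z) → z ∈ Subgroup.zpowers g := by
  rintro z ⟨w, hw⟩ hz
  have hw' : Rep hE e ι z w := hw
  have h1 := hc w (Rep.fix hF hw') (fun m hm => by
    obtain ⟨b, rfl⟩ := hM hm
    exact (Rep.comm hF hw' (rep_symm (hE := hE) b)).1 (hz _ (mem_lf.2 ⟨b, hm, rfl⟩)))
  have h2 : IsOfFinOrder y := isOfFinOrder_iff_pow_eq_one.2 ⟨t, ht, hyt⟩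
  obtain ⟨n, hn⟩ := (h2.mem_powers_iff_mem_zpowers.2 h1)
  have h4 : z = g ^ n := by
    apply Rep.inj hF hw'
    have h3 := hr.pow n
    have hn' : y ^ n = w := hn
    rwa [hn'] at h3
  rw [h4]
  exact Subgroup.npow_mem_zpowers _ n

include hF in
/-- transport of `[U, y]` -/
theorem cmm_rep {U : Subgroup Y} {g : G} {y : Y} (hr : Rep hE e ι g y) (hU : U ≤ ι.range) {z : Y} (hz : z ∈ cmm U y) :
    ∃ c ∈ cmm (lf e ι U) g, Rep hE e ι c z := by
  induction hz using Subgroup.closure_induction with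
  | mem z hz =>
    obtain ⟨u, hu, rfl⟩ := hz
    obtain ⟨b, rfl⟩ := hU hu
    have hb : Rep hE e ι (e.symm b : G) (ι b) := rep_symm b
    exact ⟨_, mem_cmm (mem_lf.2 ⟨b, hu, rfl⟩), ((hb.mul hr).mul hb.inv).mul hr.inv⟩
  | one => exact ⟨1, one_mem _, Rep.one⟩
  | mul z z' _ _ ih ih' =>
    obtain ⟨c, hc, h3⟩ := ih
    obtain ⟨c', hc', h4⟩ := ih'
    exact ⟨c * c', mul_mem hc hc', h3.mul h4⟩
  | inv z _ ih =>
    obtain ⟨c, hc, h3⟩ := ih
    exact ⟨c⁻¹, inv_mem hc, h3.inv⟩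

include hF in
/-- `y ∈ M` of prime order, `C_I(M) ≤ ⟨y⟩` -/
theorem deadY_self {M : Subgroup Y} (hM : M ≤ ι.range) {y : Y} {t : ℕ} (ht : t.Prime) (hyt : y ^ t = 1)
    (hy1 : y ≠ 1) (hyM : y ∈ M)
    (hc : ∀ z ∈ fixedSubgroup σ, (∀ m ∈ M, z * m = m * z) → z ∈ Subgroup.zpowers y) : DeadY ι p M := by
  intro G Ω _ _ _ _ N hE e
  obtain ⟨a, rfl⟩ := hM hyM
  have hr : Rep hE e ι (e.symm a : G) (ι a) := rep_symm a
  exact dead_self hE (y := (e.symm a : G)) ht ((Rep.pow_eq_one hF hr t).2 hyt)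
    (fun h => hy1 ((Rep.eq_one hF hr).1 h)) (mem_lf.2 ⟨a, hyM, rfl⟩) (rep_zpowers hF hE e hr ht.pos hyt hc hM)

include hF in
/-- `C_I(M) ≤ ⟨y⟩` and the rule for one element -/
theorem deadY_one {M : Subgroup Y} (hM : M ≤ ι.range) {y : Y} (hyI : y ∈ ι.range) {t : ℕ} (ht : t.Prime)
    (hyt : y ^ t = 1) (hy1 : y ≠ 1)
    (hc : ∀ z ∈ fixedSubgroup σ, (∀ m ∈ M, z * m = m * z) → z ∈ Subgroup.zpowers y)
    {v : Y} (hvM : v ∈ M) (hv : v ≠ 1) {U : Subgroup Y} (hUι : U ≤ ι.range) (hU : ∀ u ∈ U, u * v = v * u)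
    (hvU : v ∈ cmm U y) : DeadY ι p M := by
  intro G Ω _ _ _ _ N hE e
  obtain ⟨a, rfl⟩ := hyI
  have hr : Rep hE e ι (e.symm a : G) (ι a) := rep_symm a
  obtain ⟨b, rfl⟩ := hM hvM
  have hrv : Rep hE e ι (e.symm b : G) (ι b) := rep_symm b
  refine dead_one hE (y := (e.symm a : G)) ht ((Rep.pow_eq_one hF hr t).2 hyt)
    (fun h => hy1 ((Rep.eq_one hF hr).1 h)) (rep_zpowers hF hE e hr ht.pos hyt hc hM) (mem_lf.2 ⟨b, hvM, rfl⟩)
    (fun h => hv ((Rep.eq_one hF hrv).1 h)) (U := lf e ι U) ?_ ?_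
  · intro u hu
    have hru : Rep hE e ι u (ι (e ⟨u, lf_le _ hu⟩)) := rep_coe _
    exact (Rep.comm hF hru hrv).2 (hU _ ((Rep.mem_lf hF hUι hru).1 hu))
  · obtain ⟨c, hc1, hc2⟩ := cmm_rep hF hE e hr hUι hvU
    rwa [Rep.inj hF hrv hc2]

include hF in
theorem rep_zpowersW {M : Subgroup Y} {g : G} {y : Y} (hr : Rep hE e ι g y) {t : ℕ} (ht : 0 < t) (hyt : y ^ t = 1)
    (hc : ∀ z, PPr (fixedSubgroup σ) p z → (∀ m ∈ M, z * m = m * z) → z * y = y * z → z ∈ Subgroup.zpowers y)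
    (hM : M ≤ ι.range) :
    ∀ z, PPr (DG hE e ι) p z → (∀ m ∈ lf e ι M, z * m = m * z) → z * g = g * z → z ∈ Subgroup.zpowers g := by
  intro z hzP hz hzg
  obtain ⟨w, hw⟩ := hzP.1
  have hw' : Rep hE e ι z w := hw
  have h1 := hc w ((Rep.ppr hF hE e hw').1 hzP) (fun m hm => by
    obtain ⟨b, rfl⟩ := hM hm
    exact (Rep.comm hF hw' (rep_symm (hE := hE) b)).1 (hz _ (mem_lf.2 ⟨b, hm, rfl⟩))) ((Rep.comm hF hw' hr).1 hzg)
  have h2 : IsOfFinOrder y := isOfFinOrder_iff_pow_eq_one.2 ⟨t, ht, hyt⟩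
  obtain ⟨n, hn⟩ := (h2.mem_powers_iff_mem_zpowers.2 h1)
  have h4 : z = g ^ n := by
    apply Rep.inj hF hw'
    have h3 := hr.pow n
    have hn' : y ^ n = w := hn
    rwa [hn'] at h3
  rw [h4]
  exact Subgroup.npow_mem_zpowers _ n

include hF in
/-- `y ∈ M` of prime order, `C_I(M) ∩ C_I(y) ≤ ⟨y⟩` (elements of prime order) -/
theorem deadYAt_self {M : Subgroup Y} (hM : M ≤ ι.range) {y : Y} {t : ℕ} (ht : t.Prime) (hyt : y ^ t = 1)
    (hy1 : y ≠ 1) (hyM : y ∈ M)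
    (hc : ∀ z, PPr (fixedSubgroup σ) p z → (∀ m ∈ M, z * m = m * z) → z * y = y * z → z ∈ Subgroup.zpowers y) :
    DeadYAt ι p M y := by
  intro G Ω _ _ _ _ N hE e g hr
  have hgM : g ∈ lf e ι M := (Rep.mem_lf hF hM hr).2 hyM
  exact deadAt_self hE ht ((Rep.pow_eq_one hF hr t).2 hyt) (fun h => hy1 ((Rep.eq_one hF hr).1 h)) hgM
    (rep_zpowersW hF hE e hr ht.pos hyt hc hM)

include hF in
/-- `C_I(M) ∩ C_I(y) ≤ ⟨y⟩` (elements of prime order) and the rule for one element -/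
theorem deadYAt_one {M : Subgroup Y} (hM : M ≤ ι.range) {y : Y} {t : ℕ} (ht : t.Prime)
    (hyt : y ^ t = 1) (hy1 : y ≠ 1)
    (hc : ∀ z, PPr (fixedSubgroup σ) p z → (∀ m ∈ M, z * m = m * z) → z * y = y * z → z ∈ Subgroup.zpowers y)
    {v : Y} (hvM : v ∈ M) (hv : v ≠ 1) {U : Subgroup Y} (hUι : U ≤ ι.range) (hU : ∀ u ∈ U, u * v = v * u)
    (hvU : v ∈ cmm U y) : DeadYAt ι p M y := by
  intro G Ω _ _ _ _ N hE e g hr
  obtain ⟨b, rfl⟩ := hM hvM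
  have hrv : Rep hE e ι (e.symm b : G) (ι b) := rep_symm b
  refine deadAt_one hE ht ((Rep.pow_eq_one hF hr t).2 hyt) (fun h => hy1 ((Rep.eq_one hF hr).1 h))
    (rep_zpowersW hF hE e hr ht.pos hyt hc hM) (mem_lf.2 ⟨b, hvM, rfl⟩)
    (fun h => hv ((Rep.eq_one hF hrv).1 h)) (U := lf e ι U) ?_ ?_
  · intro u hu
    have hru : Rep hE e ι u (ι (e ⟨u, lf_le _ hu⟩)) := rep_coe _
    exact (Rep.comm hF hru hrv).2 (hU _ ((Rep.mem_lf hF hUι hru).1 hu))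
  · obtain ⟨c, hc1, hc2⟩ := cmm_rep hF hE e hr hUι hvU
    rwa [Rep.inj hF hrv hc2]

include hF in
/-- transport of normal closures -/
theorem nclo_rep {κ : Type} {x : κ → G} {x' : κ → Y} (hx : ∀ i, Rep hE e ι (x i) (x' i)) {i₀ : κ} {w : Y}
    (hw : w ∈ nclo (ι.range ⊓ ⨅ i : {i // i ≠ i₀}, centralizer {x' i}) (x' i₀)) :
    ∃ g ∈ nclo (N ⊓ ⨅ i : {i // i ≠ i₀}, centralizer {x i}) (x i₀), Rep hE e ι g w := by
  unfold nclo at hw
  induction hw using Subgroup.closure_induction with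
  | mem z hz =>
    obtain ⟨c, ⟨⟨a, rfl⟩, hc⟩, rfl⟩ := hz
    have hr : Rep hE e ι (e.symm a : G) (ι a) := rep_symm a
    refine ⟨(e.symm a : G) * x i₀ * (e.symm a : G)⁻¹, subset_closure ⟨_, ⟨(e.symm a).2, ?_⟩, rfl⟩, (hr.mul (hx i₀)).mul hr.inv⟩
    have hc' : ι a ∈ ⨅ i : {i // i ≠ i₀}, centralizer {x' i} := hc
    exact mem_iInf.2 fun i => mem_centralizer_singleton_iff.2
      ((Rep.comm hF hr (hx i)).2 (mem_centralizer_singleton_iff.1 (mem_iInf.1 hc' i)))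
  | one => exact ⟨1, one_mem _, Rep.one⟩
  | mul z z' _ _ ih ih' =>
    obtain ⟨c, hc, h3⟩ := ih
    obtain ⟨c', hc', h4⟩ := ih'
    exact ⟨c * c', mul_mem hc hc', h3.mul h4⟩
  | inv z _ ih =>
    obtain ⟨c, hc, h3⟩ := ih
    exact ⟨c⁻¹, inv_mem hc, h3.inv⟩

include hF in
/-- transport of normal closures, other direction -/
theorem nclo_rep' {κ : Type} {x : κ → G} {x' : κ → Y} (hx : ∀ i, Rep hE e ι (x i) (x' i)) {i₀ : κ} {g : G}
    (hg : g ∈ nclo (N ⊓ ⨅ i : {i // i ≠ i₀}, centralizer {x i}) (x i₀)) :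
    ∃ w ∈ nclo (ι.range ⊓ ⨅ i : {i // i ≠ i₀}, centralizer {x' i}) (x' i₀), Rep hE e ι g w := by
  unfold nclo at hg
  induction hg using Subgroup.closure_induction with
  | mem z hz =>
    obtain ⟨c, ⟨hcN, hc⟩, rfl⟩ := hz
    have hr : Rep hE e ι c (ι (e ⟨c, hcN⟩)) := rep_coe hcN
    refine ⟨ι (e ⟨c, hcN⟩) * x' i₀ * (ι (e ⟨c, hcN⟩))⁻¹, subset_closure ⟨_, ⟨⟨_, rfl⟩, ?_⟩, rfl⟩,
      (hr.mul (hx i₀)).mul hr.inv⟩
    have hc' : c ∈ ⨅ i : {i // i ≠ i₀}, centralizer {x i} := hc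
    exact mem_iInf.2 fun i => mem_centralizer_singleton_iff.2
      ((Rep.comm hF hr (hx i)).1 (mem_centralizer_singleton_iff.1 (mem_iInf.1 hc' i)))
  | one => exact ⟨1, one_mem _, Rep.one⟩
  | mul z z' _ _ ih ih' =>
    obtain ⟨c, hc, h3⟩ := ih
    obtain ⟨c', hc', h4⟩ := ih'
    exact ⟨c * c', mul_mem hc hc', h3.mul h4⟩
  | inv z _ ih =>
    obtain ⟨c, hc, h3⟩ := ih
    exact ⟨c⁻¹, inv_mem hc, h3.inv⟩

include hF in
theorem pf_rep {κ : Type} {x : κ → G} {x' : κ → Y} {r : κ → ℕ} (hx : ∀ i, Rep hE e ι (x i) (x' i)) (h : PF x r) :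
    PF x' r :=
  ⟨h.prime, h.inj, fun i => (Rep.pow_eq_one hF (hx i) _).1 (h.pow i), fun i h2 => h.ne i ((Rep.eq_one hF (hx i)).2 h2),
    fun i j => (Rep.comm hF (hx i) (hx j)).1 (h.comm i j)⟩

include hF in
theorem nearPF_rep {κ : Type} {x : κ → G} {x' : κ → Y} {r : κ → ℕ} (hx : ∀ i, Rep hE e ι (x i) (x' i))
    (h : NearPF p x r) : NearPF p x' r :=
  ⟨h.prime, h.nep, fun i h2 => h.ne i ((Rep.eq_one hF (hx i)).2 h2),
    fun i => (Rep.pow_eq_one hF (hx i) _).1 (h.pow i),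
    fun i j => (Rep.comm hF (hx i) (hx j)).1 (h.comm i j), h.inj⟩

include hF in
/-- **The engine with data in `Y`**: `P : Y → Prop` a predicate of useful elements; the inputs `hS1` (families of
`p'`-elements) and `hS2` (mixed families) -/
theorem engineYP [Finite K₀] [Nonempty Ω] (hp : p.Prime)
    (hpm : ∀ y ∈ fixedSubgroup σ, y ^ p = 1 → y ∈ ι.range)
    (hcore : ∀ s ∈ fixedSubgroup σ, (∃ m : ℕ, m.Coprime p ∧ s ^ m = 1) → pCore p ↥(ι.range ⊓ centralizer {s}) = ⊥)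
    (hIH : IHx (Nat.card K₀)) (P : Y → Prop)
    (hP : ∀ y, PPr (fixedSubgroup σ) p y → P y → ∃ M, UsY ι (fixedSubgroup σ) p M y)
    (hM3 : ∀ (y x : Y) (t : ℕ), t.Prime → t ≠ p → y ∈ ι.range → y ≠ 1 → y ^ t = 1 → x ∈ fixedSubgroup σ → x ≠ 1 →
      x ^ t = 1 → y * x = x * y → P y → ¬ P x →
      ∃ M, UsY ι (fixedSubgroup σ) p M y ∧ x ∈ Subgroup.normalizer (M : Set Y))
    {κ : Type} [Finite κ]
    (hS1 : ∀ (x : κ → G) (y : κ → Y) (r : κ → ℕ), (∀ i, Rep hE e ι (x i) (y i)) → (∀ i, y i ∈ fixedSubgroup σ) →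
      PF y r → (∀ i, r i ≠ p) → (∀ i, ¬ P (y i)) → ¬ Cov Ω x)
    (hS2 : ∀ (x : κ → G) (y : κ → Y) (r : κ → ℕ) (i₀ : κ), (∀ i, Rep hE e ι (x i) (y i)) →
      (∀ i, y i ∈ fixedSubgroup σ) → PF y r → r i₀ = p → y i₀ ∈ ι.range → (∀ i, i ≠ i₀ → ¬ P (y i)) →
      (∀ w ∈ nclo (ι.range ⊓ ⨅ i : {i // i ≠ i₀}, centralizer {y i}) (y i₀), PPr (fixedSubgroup σ) p w → ¬ P w) →
      ¬ Cov Ω x)
    {x : κ → G} {r : κ → ℕ}
    (hx : PF x r) (hcov : Cov Ω x) (hD : ∀ i, act hE e (x i) ∈ InD ι) : False := by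
  classical
  refine engineP (Ω := Ω) (D := DG hE e ι) e hIH hp (le_DG hF) ?_ ?_ (fun g => ∃ y, Rep hE e ι g y ∧ P y)
    ?_ ?_ ?_ ?_ hx hcov hD
  · rintro u ⟨y, hy⟩ hu
    have hy' : Rep hE e ι u y := hy
    exact (Rep.mem_N hF hy').2 (hpm y (Rep.fix hF hy') ((Rep.pow_eq_one hF hy' p).1 hu))
  · rintro s ⟨y, hy⟩ ⟨m, hm, hsm⟩
    have hy' : Rep hE e ι s y := hy
    exact core hF hy' (hcore y (Rep.fix hF hy') ⟨m, hm, (Rep.pow_eq_one hF hy' m).1 hsm⟩)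
  · rintro g hg ⟨y, hy, hPy⟩
    obtain ⟨M, hM⟩ := hP y ((Rep.ppr hF hE e hy).1 hg) hPy
    exact ⟨_, usBy hF hE e hy hM⟩
  · rintro g x t ht htp hgN hg hgt ⟨x', hx'⟩ hx1 hxt hxg ⟨y, hy, hPy⟩ hPx
    have hx'' : Rep hE e ι x x' := hx'
    obtain ⟨M, hM, hn⟩ := hM3 y x' t ht htp ((Rep.mem_N hF hy).1 hgN) (fun h1 => hg ((Rep.eq_one hF hy).2 h1))
      ((Rep.pow_eq_one hF hy t).1 hgt) (Rep.fix hF hx'') (fun h1 => hx1 ((Rep.eq_one hF hx'').2 h1))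
      ((Rep.pow_eq_one hF hx'' t).1 hxt) ((Rep.comm hF hy hx'').1 hxg) hPy (fun h1 => hPx ⟨x', hx'', h1⟩)
    exact ⟨_, usBy hF hE e hy hM, Rep.normalizer hF hE e hM.le hx'' hn⟩
  · intro z r' hz hzD hr' hPz
    have h1 : ∀ i, ∃ y, Rep hE e ι (z i) y := fun i => hzD i
    choose y hy using h1
    exact hS1 z y r' hy (fun i => Rep.fix hF (hy i)) (pf_rep hF hE e hy hz) hr' (fun i h2 => hPz i ⟨y i, hy i, h2⟩)
  · intro z r' i₀ hz hzD hr' hzN hPz hncl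
    have h1 : ∀ i, ∃ y, Rep hE e ι (z i) y := fun i => hzD i
    choose y hy using h1
    refine hS2 z y r' i₀ hy (fun i => Rep.fix hF (hy i)) (pf_rep hF hE e hy hz) hr' ((Rep.mem_N hF (hy i₀)).1 hzN)
      (fun i hi h2 => hPz i hi ⟨y i, hy i, h2⟩) (fun w hw hwp hPw => ?_)
    obtain ⟨g, hg, hgw⟩ := nclo_rep hF hE e hy hw
    exact hncl g hg ((Rep.ppr hF hE e hgw).2 hwp) ⟨w, hgw, hPw⟩

include hF in
/-- **The engine with data in `Y`**, one input for the families without useful members -/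
theorem engineYP1 [Finite K₀] [Nonempty Ω] (hp : p.Prime)
    (hpm : ∀ y ∈ fixedSubgroup σ, y ^ p = 1 → y ∈ ι.range)
    (hcore : ∀ s ∈ fixedSubgroup σ, (∃ m : ℕ, m.Coprime p ∧ s ^ m = 1) → pCore p ↥(ι.range ⊓ centralizer {s}) = ⊥)
    (hIH : IHx (Nat.card K₀)) (P : Y → Prop)
    (hP : ∀ y, PPr (fixedSubgroup σ) p y → P y → ∃ M, UsY ι (fixedSubgroup σ) p M y)
    (hM3 : ∀ (y x : Y) (t : ℕ), t.Prime → t ≠ p → y ∈ ι.range → y ≠ 1 → y ^ t = 1 → x ∈ fixedSubgroup σ → x ≠ 1 →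
      x ^ t = 1 → y * x = x * y → P y → ¬ P x →
      ∃ M, UsY ι (fixedSubgroup σ) p M y ∧ x ∈ Subgroup.normalizer (M : Set Y))
    {κ : Type} [Finite κ]
    (hS : ∀ (z : κ → G) (y : κ → Y) (r : κ → ℕ), (∀ i, Rep hE e ι (z i) (y i)) → (∀ i, y i ∈ fixedSubgroup σ) →
      NearPF p y r → (∀ i, ¬ P (y i)) → ¬ Cov Ω z)
    {x : κ → G} {r : κ → ℕ}
    (hx : PF x r) (hcov : Cov Ω x) (hD : ∀ i, act hE e (x i) ∈ InD ι) : False := by
  classical
  refine engineP1 (Ω := Ω) (D := DG hE e ι) e hIH hp (le_DG hF) ?_ ?_ (fun g => ∃ y, Rep hE e ι g y ∧ P y)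
    ?_ ?_ ?_ hx hcov hD
  · rintro u ⟨y, hy⟩ hu
    have hy' : Rep hE e ι u y := hy
    exact (Rep.mem_N hF hy').2 (hpm y (Rep.fix hF hy') ((Rep.pow_eq_one hF hy' p).1 hu))
  · rintro s ⟨y, hy⟩ ⟨m, hm, hsm⟩
    have hy' : Rep hE e ι s y := hy
    exact core hF hy' (hcore y (Rep.fix hF hy') ⟨m, hm, (Rep.pow_eq_one hF hy' m).1 hsm⟩)
  · rintro g hg ⟨y, hy, hPy⟩
    obtain ⟨M, hM⟩ := hP y ((Rep.ppr hF hE e hy).1 hg) hPy
    exact ⟨_, usBy hF hE e hy hM⟩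
  · rintro g x t ht htp hgN hg hgt ⟨x', hx'⟩ hx1 hxt hxg ⟨y, hy, hPy⟩ hPx
    have hx'' : Rep hE e ι x x' := hx'
    obtain ⟨M, hM, hn⟩ := hM3 y x' t ht htp ((Rep.mem_N hF hy).1 hgN) (fun h1 => hg ((Rep.eq_one hF hy).2 h1))
      ((Rep.pow_eq_one hF hy t).1 hgt) (Rep.fix hF hx'') (fun h1 => hx1 ((Rep.eq_one hF hx'').2 h1))
      ((Rep.pow_eq_one hF hx'' t).1 hxt) ((Rep.comm hF hy hx'').1 hxg) hPy (fun h1 => hPx ⟨x', hx'', h1⟩)
    exact ⟨_, usBy hF hE e hy hM, Rep.normalizer hF hE e hM.le hx'' hn⟩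
  · intro z r' hz hpf
    have h1 : ∀ i, ∃ y, Rep hE e ι (z i) y := fun i => (hz i).1
    choose y hy using h1
    exact hS z y r' hy (fun i => Rep.fix hF (hy i)) (nearPF_rep hF hE e hy hpf) (fun i h2 => (hz i).2 ⟨y i, hy i, h2⟩)

include hF in
/-- **The character bound in `Y`.** -/
theorem not_cov_sum [Finite ↥(fixedSubgroup σ)] [Finite Ω] [Nonempty Ω] {d : ℕ} (hd0 : 0 < d)
    (hd : H514.DP.MinDeg K₀ d) {κ : Type} [Fintype κ] {z : κ → G} {y : κ → Y} {c : κ → ℕ}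
    (hy : ∀ i, Rep hE e ι (z i) (y i)) (hc : ∀ i, Nat.card ↥(fixedSubgroup σ ⊓ centralizer {y i}) ≤ c i)
    (hnum : ∑ i, (1 / ((d : ℝ) + 1) + √(c i : ℝ) / d) < 1) : ¬ Cov Ω z :=
  H368.RC.not_cov_env hE (H := DG hE e ι) (le_DG hF) hd0 (H368.RC.minDeg_surj hd e.symm.toMonoidHom e.symm.surjective)
    (fun i => ⟨y i, hy i⟩) (c := c) (fun i => (card_le hF (hy i)).trans (hc i)) hnum

/-- the bound for the fixed point ratio -/
noncomputable def fb (d b : ℕ) : ℝ := 1 / ((d : ℝ) + 1) + √(b : ℝ) / d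

theorem fb_nonneg (d b : ℕ) : 0 ≤ fb d b := by
  unfold fb
  positivity

include hF in
/-- **The numbers**: the bound `B r` for the centralizers depends on the prime `r`; one member is counted twice -/
theorem not_cov_near [Finite ↥(fixedSubgroup σ)] [Finite Ω] [Nonempty Ω] {d Bm : ℕ} (hd0 : 0 < d)
    (hd : H514.DP.MinDeg K₀ d) (P : Y → Prop) (B : ℕ → ℕ) (Q : Finset ℕ)
    (hB : ∀ r : ℕ, r.Prime → r ≠ p → ∀ y ∈ fixedSubgroup σ, y ≠ 1 → y ^ r = 1 → ¬ P y →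
      r ∈ Q ∧ Nat.card ↥(fixedSubgroup σ ⊓ centralizer {y}) ≤ B r)
    (hBm : ∀ r ∈ Q, B r ≤ Bm) (hnum : ∑ r ∈ Q, fb d (B r) + fb d Bm < 1)
    {κ : Type} [Finite κ] {z : κ → G} {y : κ → Y} {r : κ → ℕ} (hy : ∀ i, Rep hE e ι (z i) (y i))
    (hyI : ∀ i, y i ∈ fixedSubgroup σ) (hpf : NearPF p y r) (hP : ∀ i, ¬ P (y i)) : ¬ Cov Ω z := by
  classical
  have := Fintype.ofFinite κ
  have key : ∀ i, r i ∈ Q ∧ Nat.card ↥(fixedSubgroup σ ⊓ centralizer {y i}) ≤ B (r i) := fun i =>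
    hB (r i) (hpf.prime i) (hpf.nep i) (y i) (hyI i) (hpf.ne i) (hpf.pow i) (hP i)
  obtain ⟨o, ho⟩ := hpf.inj
  refine not_cov_sum hF hE e hd0 hd hy (c := fun i => B (r i)) (fun i => (key i).2) ?_
  have h1 : ∀ i, (1 / ((d : ℝ) + 1) + √((B (r i) : ℕ) : ℝ) / d) = fb d (B (r i)) := fun i => rfl
  simp only [h1]
  have hsub : ∀ s : Finset κ, (∀ i ∈ s, some i ≠ o) → ∑ i ∈ s, fb d (B (r i)) ≤ ∑ q ∈ Q, fb d (B q) := by
    intro s hs
    calc ∑ i ∈ s, fb d (B (r i)) = ∑ q ∈ s.image r, fb d (B q) := by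
          rw [Finset.sum_image fun a ha b hb hab => ho a b (hs a ha) (hs b hb) hab]
      _ ≤ ∑ q ∈ Q, fb d (B q) := by
          refine Finset.sum_le_sum_of_subset_of_nonneg ?_ fun _ _ _ => fb_nonneg _ _
          intro q hq
          obtain ⟨i, hi, rfl⟩ := Finset.mem_image.1 hq
          exact (key i).1
  rcases o with _ | i₀
  · have h2 := hsub Finset.univ (fun i _ => Option.some_ne_none i)
    have h3 := fb_nonneg d Bm
    linarith
  · rw [← Finset.add_sum_erase Finset.univ _ (Finset.mem_univ i₀)]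
    have h2 := hsub (Finset.univ.erase i₀) (fun i hi h => Finset.ne_of_mem_erase hi (Option.some_injective _ h))
    have h3 : fb d (B (r i₀)) ≤ fb d Bm := by
      unfold fb
      have h4 : √(B (r i₀) : ℝ) ≤ √(Bm : ℝ) := Real.sqrt_le_sqrt (by exact_mod_cast hBm _ (key i₀).1)
      have h5 : √(B (r i₀) : ℝ) / d ≤ √(Bm : ℝ) / d := div_le_div_of_nonneg_right h4 (Nat.cast_nonneg d)
      linarith
    linarith

include hF in
/-- **The engine with data in `Y` and numbers depending on the prime.** -/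
theorem engineYPN [Finite ↥(fixedSubgroup σ)] [Finite K₀] [Finite Ω] [Nonempty Ω] (hp : p.Prime)
    (hpm : ∀ y ∈ fixedSubgroup σ, y ^ p = 1 → y ∈ ι.range)
    (hcore : ∀ s ∈ fixedSubgroup σ, (∃ m : ℕ, m.Coprime p ∧ s ^ m = 1) → pCore p ↥(ι.range ⊓ centralizer {s}) = ⊥)
    (hIH : IHx (Nat.card K₀)) {d Bm : ℕ} (hd0 : 0 < d) (hd : H514.DP.MinDeg K₀ d) (P : Y → Prop)
    (hP : ∀ y, PPr (fixedSubgroup σ) p y → P y → ∃ M, UsY ι (fixedSubgroup σ) p M y)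
    (hM3 : ∀ (y x : Y) (t : ℕ), t.Prime → t ≠ p → y ∈ ι.range → y ≠ 1 → y ^ t = 1 → x ∈ fixedSubgroup σ → x ≠ 1 →
      x ^ t = 1 → y * x = x * y → P y → ¬ P x →
      ∃ M, UsY ι (fixedSubgroup σ) p M y ∧ x ∈ Subgroup.normalizer (M : Set Y))
    (B : ℕ → ℕ) (Q : Finset ℕ)
    (hB : ∀ r : ℕ, r.Prime → r ≠ p → ∀ y ∈ fixedSubgroup σ, y ≠ 1 → y ^ r = 1 → ¬ P y →
      r ∈ Q ∧ Nat.card ↥(fixedSubgroup σ ⊓ centralizer {y}) ≤ B r)
    (hBm : ∀ r ∈ Q, B r ≤ Bm) (hnum : ∑ r ∈ Q, fb d (B r) + fb d Bm < 1)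
    {κ : Type} [Finite κ] {x : κ → G} {r : κ → ℕ}
    (hx : PF x r) (hcov : Cov Ω x) (hD : ∀ i, act hE e (x i) ∈ InD ι) : False :=
  engineYP1 hF hE e hp hpm hcore hIH P hP hM3
    (fun _ _ _ hy hyI hpf hPy => not_cov_near hF hE e hd0 hd P B Q hB hBm hnum hy hyI hpf hPy) hx hcov hD

include hF in
/-- **Kill by a long root element**, in `Y`. -/
theorem kill_lrY [Nonempty Ω] (h : YData ι (fixedSubgroup σ) p V U) {v : Y} (hv : V v) {κ : Type*} [Finite κ]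
    {x : κ → G} {y : κ → Y} (hy : ∀ i, Rep hE e ι (x i) (y i)) (hyP : ∀ i, PPr (fixedSubgroup σ) p (y i))
    (hc : ∀ i j, y i * y j = y j * y i) (hyv : ∀ i, y i * v = v * y i) {g : G} (hg : Rep hE e ι g v) :
    ¬ ∀ ω : Ω, g • ω = ω ∨ ∃ i, x i • ω = ω := by
  intro hcov
  obtain ⟨a, ha⟩ := h.vmem v hv
  have hga : g = (e.symm a : G) := Rep.inj hF hg (by rw [← ha]; exact rep_symm a)
  choose r hr using fun i => (hyP i).2.2
  refine kill_lr hE (lrData hF hE e h) (v := g) ⟨a, hga.symm, by rw [ha]; exact hv⟩ (x := x) (r := r)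
    (fun i => ⟨y i, hy i⟩) (fun i h1 => (hyP i).2.1 ((Rep.eq_one hF (hy i)).1 h1)) (fun i => (hr i).1)
    (fun i => (hr i).2.1) (fun i => (Rep.pow_eq_one hF (hy i) _).2 (hr i).2.2)
    (fun i j => (Rep.comm hF (hy i) (hy j)).2 (hc i j)) (fun i => (Rep.comm hF (hy i) hg).2 (hyv i)) hcov

include hF in
/-- **Kill of a mixed cover** by a long root element `v`, in `Y`. -/
theorem kill_mixedY [Nonempty Ω] (h : YData ι (fixedSubgroup σ) p V U) {κ : Type} [Finite κ] {x : κ → G} {y : κ → Y}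
    {r : κ → ℕ} (hy : ∀ i, Rep hE e ι (x i) (y i)) (hpf : PF y r) {i₀ : κ} (hi₀ : r i₀ = p)
    (hN : y i₀ ∈ ι.range) {v : Y} (hv : V v) (hyv : ∀ i, i ≠ i₀ → y i * v = v * y i)
    (hv2 : v ∈ KK ι.range y i₀ ∨ ∃ w ∈ KK ι.range y i₀, PPr (fixedSubgroup σ) p w ∧ w * v = v * w) : ¬ Cov Ω x := by
  intro hcov
  obtain ⟨a, ha⟩ := h.vmem v hv
  have hg : Rep hE e ι (e.symm a : G) v := by rw [← ha]; exact rep_symm a
  have hpf' : PF x r := ⟨hpf.prime, hpf.inj, fun i => (Rep.pow_eq_one hF (hy i) _).2 (hpf.pow i),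
    fun i h2 => hpf.ne i ((Rep.eq_one hF (hy i)).1 h2), fun i j => (Rep.comm hF (hy i) (hy j)).2 (hpf.comm i j)⟩
  refine kill_mixed hE (lrData hF hE e h) hpf' hcov (fun i => ⟨y i, hy i⟩) hi₀ ((Rep.mem_N hF (hy i₀)).2 hN)
    (v := (e.symm a : G)) ⟨a, rfl, by rw [ha]; exact hv⟩ (fun i hi => (Rep.comm hF (hy i) hg).2 (hyv i hi)) ?_
  rcases hv2 with h1 | ⟨w, hw, hwP, hwv⟩
  · left
    obtain ⟨c, hc, hcr⟩ := nclo_rep hF hE e hy h1
    rwa [Rep.inj hF hg hcr]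
  · right
    obtain ⟨c, hc, hcr⟩ := nclo_rep hF hE e hy hw
    exact ⟨c, hc, (Rep.ppr hF hE e hcr).2 hwP, (Rep.comm hF hcr hg).2 hwv⟩

include hF in
/-- **The engine with data in `Y`, numbers depending on the prime, and a class `X` excluded separately.** -/
theorem engineYPX [Finite ↥(fixedSubgroup σ)] [Finite K₀] [Finite Ω] [Nonempty Ω] (hp : p.Prime)
    (hpm : ∀ y ∈ fixedSubgroup σ, y ^ p = 1 → y ∈ ι.range)
    (hcore : ∀ s ∈ fixedSubgroup σ, (∃ m : ℕ, m.Coprime p ∧ s ^ m = 1) → pCore p ↥(ι.range ⊓ centralizer {s}) = ⊥)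
    (hIH : IHx (Nat.card K₀)) {d Bm : ℕ} (hd0 : 0 < d) (hd : H514.DP.MinDeg K₀ d) (P X : Y → Prop)
    (hP : ∀ y, PPr (fixedSubgroup σ) p y → P y → ∃ M, UsY ι (fixedSubgroup σ) p M y)
    (hM3 : ∀ (y x : Y) (t : ℕ), t.Prime → t ≠ p → y ∈ ι.range → y ≠ 1 → y ^ t = 1 → x ∈ fixedSubgroup σ → x ≠ 1 →
      x ^ t = 1 → y * x = x * y → P y → ¬ P x →
      ∃ M, UsY ι (fixedSubgroup σ) p M y ∧ x ∈ Subgroup.normalizer (M : Set Y))
    {κ : Type} [Finite κ]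
    (hX : ∀ (x : κ → G) (y : κ → Y) (r : κ → ℕ), (∀ i, Rep hE e ι (x i) (y i)) → (∀ i, y i ∈ fixedSubgroup σ) →
      PF y r → Cov Ω x → (∀ i, r i ≠ p → ¬ P (y i)) → ∀ i, r i ≠ p → ¬ X (y i))
    (hX2 : ∀ (x : κ → G) (y : κ → Y) (r : κ → ℕ) (i₀ : κ), (∀ i, Rep hE e ι (x i) (y i)) →
      (∀ i, y i ∈ fixedSubgroup σ) → PF y r → Cov Ω x → r i₀ = p → y i₀ ∈ ι.range → (∀ i, i ≠ i₀ → ¬ P (y i)) →
      (∀ i, i ≠ i₀ → ¬ X (y i)) → (∀ w ∈ KK ι.range y i₀, PPr (fixedSubgroup σ) p w → ¬ P w) →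
      ∀ w ∈ KK ι.range y i₀, PPr (fixedSubgroup σ) p w → ¬ X w)
    (B : ℕ → ℕ) (Q : Finset ℕ)
    (hB : ∀ r : ℕ, r.Prime → r ≠ p → ∀ y ∈ fixedSubgroup σ, y ≠ 1 → y ^ r = 1 → ¬ P y → ¬ X y →
      r ∈ Q ∧ Nat.card ↥(fixedSubgroup σ ⊓ centralizer {y}) ≤ B r)
    (hBm : ∀ r ∈ Q, B r ≤ Bm) (hnum : ∑ r ∈ Q, fb d (B r) + fb d Bm < 1)
    {x : κ → G} {r : κ → ℕ}
    (hx : PF x r) (hcov : Cov Ω x) (hD : ∀ i, act hE e (x i) ∈ InD ι) : False := by
  refine engineYP hF hE e hp hpm hcore hIH P hP hM3 ?_ ?_ hx hcov hD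
  · intro x y r hy hyI hpf hr hPy hcov
    have hXy := hX x y r hy hyI hpf hcov (fun i _ => hPy i)
    exact not_cov_near hF hE e hd0 hd (fun y => P y ∨ X y) B Q
      (fun q hq hqp y hyI hy1 hyq hn => hB q hq hqp y hyI hy1 hyq (fun h => hn (Or.inl h)) (fun h => hn (Or.inr h)))
      hBm hnum hy hyI ⟨hpf.prime, hr, hpf.ne, hpf.pow, hpf.comm, none, fun i j _ _ h => hpf.inj h⟩
      (fun i h => h.elim (hPy i) (hXy i (hr i))) hcov
  · intro x y r i₀ hy hyI hpf hr0 hN hPy hcl hcov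
    have hrne : ∀ i, i ≠ i₀ → r i ≠ p := fun i hi h => hi (hpf.inj (h.trans hr0.symm))
    have hXy : ∀ i, i ≠ i₀ → ¬ X (y i) := fun i hi =>
      hX x y r hy hyI hpf hcov (fun j hj => hPy j (fun h => hj (by rw [h]; exact hr0))) i (hrne i hi)
    have hcl2 := hX2 x y r i₀ hy hyI hpf hcov hr0 hN hPy hXy hcl
    have hpf' : PF x r := ⟨hpf.prime, hpf.inj, fun i => (Rep.pow_eq_one hF (hy i) _).2 (hpf.pow i),
      fun i h2 => hpf.ne i ((Rep.eq_one hF (hy i)).1 h2), fun i j => (Rep.comm hF (hy i) (hy j)).2 (hpf.comm i j)⟩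
    have hk : ∀ g ∈ nclo (N ⊓ ⨅ i : {i // i ≠ i₀}, centralizer {x i}) (x i₀), PPr (DG hE e ι) p g →
        ¬ ∀ y, Rep hE e ι g y → P y ∨ X y := by
      intro g hg hgP hgPX
      obtain ⟨w, hw, hwr⟩ := nclo_rep' hF hE e hy hg
      have hwP := (Rep.ppr hF hE e hwr).1 hgP
      rcases hgPX w hwr with h5 | h5
      · exact hcl w hw hwP h5
      · exact hcl2 w hw hwP h5
    have hB' : ∀ s ∈ DG hE e ι, (∃ m : ℕ, m.Coprime p ∧ s ^ m = 1) → pCore p ↥(N ⊓ Subgroup.centralizer {s}) = ⊥ := by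
      rintro s ⟨y, hy⟩ ⟨m, hm, hsm⟩
      have hy' : Rep hE e ι s y := hy
      exact core hF hy' (hcore y (Rep.fix hF hy') ⟨m, hm, (Rep.pow_eq_one hF hy' m).1 hsm⟩)
    obtain ⟨z, r', h1, h2, -, h3⟩ := exchange (D := DG hE e ι) hp (le_DG hF) hB'
      (fun g => ∀ y, Rep hE e ι g y → P y ∨ X y) hpf' (fun i => ⟨y i, hy i⟩) hr0 ((Rep.mem_N hF (hy i₀)).2 hN)
      (fun i hi h => (h (y i) (hy i)).elim (hPy i hi) (hXy i hi)) hk hcov
    have h4 : ∀ i, ∃ w, Rep hE e ι (z i) w := fun i => (h1 i).1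
    choose w hw using h4
    refine not_cov_near hF hE e hd0 hd (fun y => P y ∨ X y) B Q
      (fun q hq hqp y hyI hy1 hyq hn => hB q hq hqp y hyI hy1 hyq (fun h => hn (Or.inl h)) (fun h => hn (Or.inr h)))
      hBm hnum hw (fun i => Rep.fix hF (hw i)) (nearPF_rep hF hE e hw h2) (fun i h => (h1 i).2 fun w' hw' => ?_) h3
    rwa [Rep.unique hF hw' (hw i)]

end Y

end Cfsg.Agent.H694.RG
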